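import Cfsg.Agent.H22.Frobenius
import Cfsg.Agent.H86.Basic
import Cfsg.Agent.H20.PxQ
import Cfsg.Agent.H24.PGroupBasic
import Cfsg.Agent.H33.Frattini
import Mathlib.GroupTheory.Transfer
import Mathlib.GroupTheory.Sylow

/-!
# Automizers in a Sylow `2`-subgroup of class two

If a group `G` with Sylow `2`-subgroup `P` of class at most two has no normal `2`-complement, some
`U ≤ P` of index two carries an element `h` of odd order acting nontrivially and inverted by
`P \ U` modulo `U C(U)`.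
-/

set_option autoImplicit false
open scoped Pointwise

namespace Cfsg.Agent.H54

universe u

variable {G : Type u} [Group G]

/-- Commutators of `P` are central in `P`. -/
def ClassTwo (P : Subgroup G) : Prop :=
  ∀ x ∈ P, ∀ y ∈ P, x * y * x⁻¹ * y⁻¹ ∈ P ⊓ Subgroup.centralizer (P : Set G)

/-- The elements acting trivially on `U` modulo a normal subgroup `N` of `U`. -/
def trivModulo (U N : Subgroup G) (hN : N ≤ U) : Subgroup G where
  carrier := {x | x ∈ Subgroup.normalizer (U : Set G) ∧ x ∈ Subgroup.normalizer (N : Set G) ∧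
    ∀ u ∈ U, x * u * x⁻¹ * u⁻¹ ∈ N}
  one_mem' := ⟨one_mem _, one_mem _, fun u _ => by simp [N.one_mem]⟩
  mul_mem' := by
    rintro a b ⟨ha, ha', hau⟩ ⟨hb, hb', hbu⟩
    refine ⟨mul_mem ha hb, mul_mem ha' hb', fun u hu => ?_⟩
    have h1 := hbu u hu
    have h2 := hau _ (hN h1)
    have h3 := hau u hu
    have h4 : a * (b * u * b⁻¹ * u⁻¹) * a⁻¹ * (a * u * a⁻¹ * u⁻¹) ∈ N :=
      N.mul_mem ((Subgroup.mem_normalizer_iff.1 ha' _).1 h1) h3
    have e : a * (b * u * b⁻¹ * u⁻¹) * a⁻¹ * (a * u * a⁻¹ * u⁻¹) = a * b * u * (a * b)⁻¹ * u⁻¹ := by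
      group
    rwa [e] at h4
  inv_mem' := by
    rintro a ⟨ha, ha', hau⟩
    refine ⟨inv_mem ha, inv_mem ha', fun u hu => ?_⟩
    have h1 := hau u hu
    have h2 := (Subgroup.mem_normalizer_iff.1 (inv_mem ha') _).1 (N.inv_mem h1)
    simpa [mul_assoc] using h2

theorem mem_trivModulo {U N : Subgroup G} {hN : N ≤ U} {x : G} :
    x ∈ trivModulo U N hN ↔ x ∈ Subgroup.normalizer (U : Set G) ∧
      x ∈ Subgroup.normalizer (N : Set G) ∧ ∀ u ∈ U, x * u * x⁻¹ * u⁻¹ ∈ N := Iff.rfl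

theorem trivModulo_conj {U N : Subgroup G} {hN : N ≤ U} {x l : G} (hx : x ∈ trivModulo U N hN)
    (hl : l ∈ Subgroup.normalizer (U : Set G)) (hl' : l ∈ Subgroup.normalizer (N : Set G)) :
    l * x * l⁻¹ ∈ trivModulo U N hN := by
  refine ⟨mul_mem (mul_mem hl hx.1) (inv_mem hl), mul_mem (mul_mem hl' hx.2.1) (inv_mem hl'),
    fun u hu => ?_⟩
  have h1 := hx.2.2 _ ((Subgroup.mem_normalizer_iff''.1 hl u).1 hu)
  have h2 := (Subgroup.mem_normalizer_iff.1 hl' _).1 h1
  simpa [mul_assoc] using h2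

/-- An element of odd order lies in a subgroup containing its square. -/
theorem mem_of_sq_mem {H : Subgroup G} {x : G} (hx : Odd (orderOf x)) (h : x ^ 2 ∈ H) : x ∈ H := by
  obtain ⟨k, hk⟩ := hx
  have e : x = (x ^ 2) ^ (k + 1) := by
    rw [← pow_mul, show 2 * (k + 1) = orderOf x + 1 by omega, pow_succ, pow_orderOf_eq_one, one_mul]
  rw [e]
  exact pow_mem h _

/-- Odd-order representative modulo the kernel of a homomorphism. -/
theorem exists_odd_rep [Finite G] {X : Type*} [Group X] {L : Subgroup G} (f : L →* X) {a : L}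
    (ha : Odd (orderOf (f a))) :
    ∃ v : L, v ∈ Subgroup.zpowers a ∧ Odd (orderOf (v : G)) ∧ f v = f a := by
  obtain ⟨y, z, hy, hz, hyz, ⟨k, hk⟩, hco⟩ :=
    H86.exists_pPart_mul_pPrimePart a (isOfFinOrder_of_finite a) Nat.prime_two
  refine ⟨z, hz, ?_, ?_⟩
  · rw [Subgroup.orderOf_coe, ← Nat.coprime_two_right]
    exact hco
  have h1 : f y = 1 := by
    rw [← orderOf_eq_one_iff]
    refine Nat.eq_one_of_dvd_coprimes (b := orderOf (f a)) ((Nat.coprime_two_left.2 ha).pow_left k)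
      (hk ▸ orderOf_map_dvd f y) ?_
    obtain ⟨i, rfl⟩ := Subgroup.mem_zpowers_iff.1 hy
    exact orderOf_dvd_of_mem_zpowers (by rw [map_zpow]; exact zpow_mem (Subgroup.mem_zpowers _) i)
  rw [← hyz, map_mul, h1, one_mul]

variable [Finite G]

/-- Frattini: a Sylow subgroup `S` of `K` and an element normalising `K`. -/
theorem exists_mem_normalizer_mul {p : ℕ} [Fact p.Prime] {K S : Subgroup G} (hS : IsPGroup p S)
    (hSK : S ≤ K) (hidx : ¬ p ∣ S.relIndex K) {h : G} (hh : h ∈ Subgroup.normalizer (K : Set G)) :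
    ∃ k ∈ K, h * k ∈ Subgroup.normalizer (S : Set G) := by
  set T : Subgroup G := MulAut.conj h⁻¹ • S with hT
  have hTK : T ≤ K := by
    rintro _ ⟨s, hs, rfl⟩
    show h⁻¹ * s * h⁻¹⁻¹ ∈ K
    rw [inv_inv]
    exact (Subgroup.mem_normalizer_iff''.1 hh s).1 (hSK hs)
  have hTc : Nat.card T = Nat.card S := (Nat.card_congr (Subgroup.equivSMul _ S).toEquiv).symm
  have hSp : IsPGroup p (S.subgroupOf K) := hS.comap_subtype
  have hTp : IsPGroup p (T.subgroupOf K) :=
    (hS.map (MulAut.conj h⁻¹).toMonoidHom).comap_subtype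
  let PS : Sylow p K := hSp.toSylow hidx
  let PT : Sylow p K := hTp.toSylow (by
    have h1 : S.relIndex K = T.relIndex K := Nat.eq_of_mul_eq_mul_left (Nat.card_pos (α := S)) (by
      conv_rhs => rw [← hTc]
      rw [← Subgroup.relIndex_bot_left, Subgroup.relIndex_mul_relIndex _ _ _ bot_le hSK,
        ← Subgroup.relIndex_bot_left (H := T), Subgroup.relIndex_mul_relIndex _ _ _ bot_le hTK])
    exact fun hd => hidx (h1 ▸ hd))
  obtain ⟨k, hk⟩ := MulAction.exists_smul_eq K PS PT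
  refine ⟨k, k.2, ?_⟩
  have h2 : ∀ s ∈ S, h * k * s * (h * k)⁻¹ ∈ S := by
    intro s hs
    have h3 : k * ⟨s, hSK hs⟩ * k⁻¹ ∈ (PT : Subgroup K) := by
      rw [← hk, Sylow.coe_subgroup_smul]
      exact Subgroup.smul_mem_pointwise_smul _ (MulAut.conj k) _
        (show (⟨s, hSK hs⟩ : K) ∈ (PS : Subgroup K) from hs)
    obtain ⟨s', hs', e⟩ := (h3 : ((k * ⟨s, hSK hs⟩ * k⁻¹ : K) : G) ∈ T)
    have e' : h⁻¹ * s' * h⁻¹⁻¹ = (k : G) * s * (k : G)⁻¹ := e
    rw [inv_inv] at e'
    have e2 : h * k * s * (h * k)⁻¹ = s' := by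
      rw [show h * k * s * (h * k)⁻¹ = h * ((k : G) * s * (k : G)⁻¹) * h⁻¹ by group, ← e']; group
    rwa [e2]
  refine Subgroup.mem_normalizer_fintype ?_
  exact h2

theorem mem_normalizer_sup {A B : Subgroup G} {g : G} (hA : g ∈ Subgroup.normalizer (A : Set G))
    (hB : g ∈ Subgroup.normalizer (B : Set G)) :
    g ∈ Subgroup.normalizer ((A ⊔ B : Subgroup G) : Set G) := by
  have h : ∀ X : Subgroup G, g ∈ Subgroup.normalizer (X : Set G) →
      X.map (MulAut.conj g).toMonoidHom ≤ X := by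
    rintro X hX _ ⟨x, hx, rfl⟩
    exact (Subgroup.mem_normalizer_iff.1 hX x).1 hx
  refine Subgroup.mem_normalizer_fintype fun x hx => ?_
  have h2 : (A ⊔ B).map (MulAut.conj g).toMonoidHom ≤ A ⊔ B := by
    rw [Subgroup.map_sup]; exact sup_le_sup (h A hA) (h B hB)
  exact h2 ⟨x, hx, rfl⟩

/-- `h` has odd order, normalises `U` and does not centralise it. -/
def Moves (U : Subgroup G) (h : G) : Prop :=
  h ∈ Subgroup.normalizer (U : Set G) ∧ Odd (orderOf h) ∧ h ∉ Subgroup.centralizer (U : Set G)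

/-- A largest moved subgroup, in a good position with respect to `P`. -/
theorem exists_maximal_moved (P : Sylow 2 G) (hcl : ClassTwo (P : Subgroup G))
    (hno : ¬ Cfsg.HasNormalPComplement 2 G) :
    ∃ (U : Subgroup G) (h : G), U ≤ (P : Subgroup G) ∧ Moves U h ∧
      (P : Subgroup G) ⊓ Subgroup.centralizer (U : Set G) ≤ U ∧
      (P : Subgroup G) ≤ Subgroup.normalizer (U : Set G) ∧
      ∀ V : Subgroup G, U < V → V ≤ (P : Subgroup G) →
        ∀ g ∈ Subgroup.normalizer (V : Set G), Odd (orderOf g) →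
          g ∈ Subgroup.centralizer (V : Set G) := by
  classical
  have hne : ∃ U : Subgroup G, U ≤ (P : Subgroup G) ∧ ∃ h, Moves U h := by
    by_contra hc
    refine hno (H22.hasNormalPComplement_of_frobenius (H22.frobeniusCondition_of_sylow P
      fun Q hQ g hg hgp => ?_))
    by_contra hgc
    exact hc ⟨Q, hQ, g, hg, Nat.coprime_two_right.1 hgp, hgc⟩
  obtain ⟨U₀, ⟨hU₀, h₀, hm₀⟩, hmax⟩ :=
    (Set.toFinite {U : Subgroup G | U ≤ (P : Subgroup G) ∧ ∃ h, Moves U h}).exists_maximalFor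
      (fun U : Subgroup G => Nat.card U) _ hne
  have hbound : ∀ V : Subgroup G, V ≤ (P : Subgroup G) → ∀ g, Moves V g →
      Nat.card V ≤ Nat.card U₀ := fun V hV g hg => by
    rcases le_total (Nat.card V) (Nat.card U₀) with h | h
    · exact h
    · exact hmax ⟨hV, g, hg⟩ h
  -- conjugate so that `P ∩ N(U)` is a Sylow subgroup of `N(U)`
  set L₀ := Subgroup.normalizer (U₀ : Set G) with hL₀
  obtain ⟨T, hT⟩ :=
    (show IsPGroup 2 (U₀.subgroupOf L₀) from (P.2.to_le hU₀).comap_subtype).exists_le_sylow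
  obtain ⟨S, hS⟩ := (T.2.map L₀.subtype).exists_le_sylow
  obtain ⟨g, hg⟩ := MulAction.exists_smul_eq G S P
  set U := MulAut.conj g • U₀ with hU
  set L := Subgroup.normalizer (U : Set G) with hL
  have hLe : L = MulAut.conj g • L₀ := by
    rw [hL, hU, hL₀]
    exact (Subgroup.map_equiv_normalizer_eq U₀ (MulAut.conj g)).symm
  have hcU : Nat.card U = Nat.card U₀ := (Nat.card_congr (Subgroup.equivSMul _ U₀).toEquiv).symm
  have hSP : MulAut.conj g • (S : Subgroup G) = (P : Subgroup G) := by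
    rw [← hg, Sylow.coe_subgroup_smul]
  have hUP : U ≤ (P : Subgroup G) := by
    rw [← hSP, hU, Subgroup.pointwise_smul_le_pointwise_smul_iff]
    exact fun x hx => hS ⟨⟨x, Subgroup.le_normalizer hx⟩, hT hx, rfl⟩
  set h := g * h₀ * g⁻¹ with hh
  have hmv : Moves U h := by
    refine ⟨?_, ?_, fun hc => hm₀.2.2 (Subgroup.mem_centralizer_iff.2 fun u hu => ?_)⟩
    · change h ∈ L
      rw [hLe, hh]
      exact Subgroup.smul_mem_pointwise_smul _ (MulAut.conj g) _ hm₀.1
    · rw [hh, show g * h₀ * g⁻¹ = MulAut.conj g h₀ from rfl, MulEquiv.orderOf_eq]; exact hm₀.2.1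
    · have h1 := Subgroup.mem_centralizer_iff.1 hc (g * u * g⁻¹)
        (Subgroup.smul_mem_pointwise_smul _ (MulAut.conj g) _ hu)
      rw [hh] at h1
      have h2 := congrArg (fun z => g⁻¹ * z * g) h1
      simpa [mul_assoc] using h2
  have hidxL : ¬ 2 ∣ ((P : Subgroup G) ⊓ L).relIndex L := by
    have h1 : ¬ 2 ∣ ((T : Subgroup L₀).map L₀.subtype).relIndex L₀ := by
      rw [Subgroup.relIndex, Subgroup.subgroupOf,
        Subgroup.comap_map_eq_self_of_injective L₀.subtype_injective]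
      exact T.not_dvd_index
    rw [hLe, ← hSP, ← Subgroup.smul_inf, Subgroup.relIndex_pointwise_smul]
    intro hd
    exact h1 (hd.trans (Subgroup.relIndex_dvd_of_le_left _ (le_inf hS (Subgroup.map_subtype_le _))))
  set C := Subgroup.centralizer (U : Set G) with hC
  have hCL : C ≤ L := Subgroup.centralizer_le_normalizer _
  set S₀ := (P : Subgroup G) ⊓ C with hS₀
  haveI hCn : (C.subgroupOf L).Normal := Subgroup.normal_subgroupOf_of_le_normalizer
    (H33.normalizer_le_normalizer_centralizer)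
  have hidxC : ¬ 2 ∣ S₀.relIndex C := by
    let PL : Sylow 2 L := (show IsPGroup 2 (((P : Subgroup G) ⊓ L).subgroupOf L) from
      (P.2.to_le inf_le_left).comap_subtype).toSylow hidxL
    have h1 := H22.sylow_not_dvd_relIndex_normal PL (C.subgroupOf L)
    rw [show (PL : Subgroup L) = ((P : Subgroup G) ⊓ L).subgroupOf L from rfl, Subgroup.relIndex_subgroupOf hCL,
      ← Subgroup.inf_relIndex_right, inf_assoc, inf_eq_right.2 hCL] at h1
    exact h1
  -- Frattini gives a moving element normalising `U ⊔ S₀`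
  have hS₀U : S₀ ≤ U := by
    have hn : h ∈ Subgroup.normalizer (C : Set G) := H33.normalizer_le_normalizer_centralizer hmv.1
    obtain ⟨k, hk, hak⟩ := exists_mem_normalizer_mul (P.2.to_le inf_le_left) inf_le_right hidxC hn
    set f := QuotientGroup.mk' (C.subgroupOf L)
    have e : f ⟨h * k, mul_mem hmv.1 (hCL hk)⟩ = f ⟨h, hmv.1⟩ := by
      rw [show (⟨h * k, mul_mem hmv.1 (hCL hk)⟩ : L) = ⟨h, hmv.1⟩ * ⟨k, hCL hk⟩ from rfl, map_mul,
        show f ⟨k, hCL hk⟩ = 1 from (QuotientGroup.eq_one_iff _).2 hk, mul_one]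
    have hodd : Odd (orderOf (f ⟨h, hmv.1⟩)) := by
      refine hmv.2.1.of_dvd_nat ((orderOf_map_dvd f _).trans ?_)
      rw [← Subgroup.orderOf_coe]
    obtain ⟨v, hv, hvo, hvf⟩ := exists_odd_rep f (e ▸ hodd)
    have hvC : (v : G) ∉ C := fun hc => by
      have h1 : f ⟨h, hmv.1⟩ = 1 := by rw [← e, ← hvf]; exact (QuotientGroup.eq_one_iff _).2 hc
      exact hmv.2.2 ((QuotientGroup.eq_one_iff (N := C.subgroupOf L) (⟨h, hmv.1⟩ : L)).1 h1)
    have hvS : (v : G) ∈ Subgroup.normalizer (S₀ : Set G) := by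
      obtain ⟨i, rfl⟩ := Subgroup.mem_zpowers_iff.1 hv
      have hz : (((⟨h * k, mul_mem hmv.1 (hCL hk)⟩ : L) ^ i : L) : G) = (h * k) ^ i := by simp
      rw [hz]
      exact zpow_mem hak i
    have hV : Moves (U ⊔ S₀) (v : G) := by
      refine ⟨?_, hvo, fun hc => hvC (Subgroup.centralizer_le (SetLike.coe_subset_coe.2 le_sup_left) hc)⟩
      exact mem_normalizer_sup v.2 hvS
    have hcard := hbound _ (sup_le hUP inf_le_left) _ hV
    rw [← hcU] at hcard
    exact le_sup_right.trans_eq (Subgroup.eq_of_le_of_card_ge le_sup_left hcard).symm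
  refine ⟨U, h, hUP, hmv, hS₀U, fun x hx => ?_, fun V hlt hVP g' hg' hodd => ?_⟩
  · refine Subgroup.mem_normalizer_fintype ?_
    intro u hu
    have h1 : x * u * x⁻¹ * u⁻¹ ∈ U := hS₀U
      ⟨(hcl x hx u (hUP hu)).1, Subgroup.centralizer_le (SetLike.coe_subset_coe.2 hUP) (hcl x hx u (hUP hu)).2⟩
    simpa using U.mul_mem h1 hu
  · by_contra hc
    have h1 := hbound V hVP g' ⟨hg', hodd, hc⟩
    rw [← hcU] at h1
    exact hlt.ne (Subgroup.eq_of_le_of_card_ge hlt.le h1)

end Cfsg.Agent.H54
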