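import Cfsg.Agent.H54.ClassTwoBad
import Cfsg.Agent.H55.PiCore
import Mathlib.GroupTheory.FixedPointFree

/-!
# The essential index-two subgroup for a class-two Sylow `2`-subgroup
-/

set_option autoImplicit false
open scoped Pointwise commutatorElement

namespace Cfsg.Agent.H54

universe u

variable {G : Type u} [Group G] [Finite G]

omit [Finite G] in
theorem eq_one_of_commutes_odd {R : Type*} [Group R] {r : R} (h : Odd (orderOf r)) (h2 : r ^ 2 = 1) :
    r = 1 := by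
  rw [← orderOf_eq_one_iff]
  exact Nat.eq_one_of_dvd_coprimes (Nat.coprime_two_right.2 h) dvd_rfl
    (orderOf_dvd_of_pow_eq_one h2)

/-- An index-two `U` with an odd element inverted by `P \ U` modulo `U C(U)`. -/
theorem exists_inverted (P : Sylow 2 G) (hcl : ClassTwo (P : Subgroup G))
    (hno : ¬ Cfsg.HasNormalPComplement 2 G)
    (hNP : ∀ g ∈ Subgroup.normalizer ((P : Subgroup G) : Set G), Odd (orderOf g) →
      g ∈ Subgroup.centralizer ((P : Subgroup G) : Set G)) :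
    ∃ (U : Subgroup G) (h t : G), U ≤ (P : Subgroup G) ∧ Moves U h ∧
      (P : Subgroup G) ⊓ Subgroup.centralizer (U : Set G) ≤ U ∧
      (P : Subgroup G) ≤ Subgroup.normalizer (U : Set G) ∧
      t ∈ (P : Subgroup G) ∧ t ∉ U ∧ (∀ x ∈ (P : Subgroup G), x ∈ U ∨ t⁻¹ * x ∈ U) ∧
      t * h * t⁻¹ * h ∈ U ⊔ Subgroup.centralizer (U : Set G) := by
  classical
  haveI : Fact (Nat.Prime 2) := ⟨Nat.prime_two⟩
  obtain ⟨U, h₀, hUP, hmv, hCU, hPL, hmax⟩ := exists_maximal_moved P hcl hno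
  set C := Subgroup.centralizer (U : Set G) with hC
  set K := U ⊔ C with hK
  set L := Subgroup.normalizer (U : Set G) with hL
  have hKL : K ≤ L := sup_le Subgroup.le_normalizer (Subgroup.centralizer_le_normalizer _)
  have hKn : L ≤ Subgroup.normalizer (K : Set G) := fun g hg =>
    mem_normalizer_sup hg (H33.normalizer_le_normalizer_centralizer hg)
  haveI : (K.subgroupOf L).Normal := Subgroup.normal_subgroupOf_of_le_normalizer hKn
  haveI : (C.subgroupOf L).Normal :=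
    Subgroup.normal_subgroupOf_of_le_normalizer H33.normalizer_le_normalizer_centralizer
  set π := QuotientGroup.mk' (K.subgroupOf L) with hπ
  have hπ1 : ∀ {x : G} (hx : x ∈ L), π ⟨x, hx⟩ = 1 ↔ x ∈ K := fun hx =>
    QuotientGroup.eq_one_iff (⟨_, hx⟩ : L)
  have hPK : (P : Subgroup G) ⊓ K ≤ U := by
    rintro x ⟨hxP, hxK⟩
    replace hxP : x ∈ (P : Subgroup G) := hxP
    replace hxK : x ∈ ((U ⊔ C : Subgroup G) : Set G) := hxK
    rw [Subgroup.coe_mul_of_left_le_normalizer_right U C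
      (Subgroup.le_normalizer.trans H33.normalizer_le_normalizer_centralizer)] at hxK
    obtain ⟨u, hu, c, hc, rfl⟩ := hxK
    have hcP : c ∈ (P : Subgroup G) := by
      simpa using (P : Subgroup G).mul_mem ((P : Subgroup G).inv_mem (hUP hu)) hxP
    exact U.mul_mem hu (hCU ⟨hcP, hc⟩)
  let PL : Sylow 2 L := P.subtype hPL
  let PX : Sylow 2 (L ⧸ K.subgroupOf L) := PL.mapSurjective (QuotientGroup.mk'_surjective _)
  have hPX : (PX : Subgroup (L ⧸ K.subgroupOf L)) = ((P : Subgroup G).subgroupOf L).map π := rfl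
  have hab : ∀ a ∈ (PX : Subgroup (L ⧸ K.subgroupOf L)), ∀ b ∈ (PX : Subgroup (L ⧸ K.subgroupOf L)),
      a * b = b * a := by
    rw [hPX]
    rintro _ ⟨⟨a, haL⟩, ha, rfl⟩ _ ⟨⟨b, hbL⟩, hb, rfl⟩
    have h1 := hcl a ha b hb
    have h2 : a * b * a⁻¹ * b⁻¹ ∈ K := (le_sup_left : U ≤ K)
      (hCU ⟨h1.1, Subgroup.centralizer_le (SetLike.coe_subset_coe.2 hUP) h1.2⟩)
    have h3 := (hπ1 (mul_mem (mul_mem (mul_mem haL hbL) (inv_mem haL)) (inv_mem hbL))).2 h2
    rw [show (⟨a * b * a⁻¹ * b⁻¹, _⟩ : L) = ⟨a, haL⟩ * ⟨b, hbL⟩ * ⟨a, haL⟩⁻¹ * ⟨b, hbL⟩⁻¹ from rfl,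
      map_mul, map_mul, map_mul, map_inv, map_inv, mul_inv_eq_one, mul_inv_eq_iff_eq_mul] at h3
    exact h3
  -- nontrivial subgroups of the Sylow subgroup have no odd normalising elements
  have hloc : ∀ V : Subgroup (L ⧸ K.subgroupOf L), V ≤ (PX : Subgroup _) → V ≠ ⊥ →
      ∀ x ∈ Subgroup.normalizer (V : Set (L ⧸ K.subgroupOf L)), Odd (orderOf x) → x = 1 := by
    intro V hVP hV x hx hxo
    set W : Subgroup G := (V.comap π).map L.subtype with hW
    have hWL : W ≤ L := Subgroup.map_subtype_le _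
    have hmemW : ∀ {y : G} (hy : y ∈ L), y ∈ W ↔ π ⟨y, hy⟩ ∈ V := fun hy =>
      ⟨fun ⟨z, hz, e⟩ => (Subtype.ext e : z = ⟨_, hy⟩) ▸ hz, fun h => ⟨_, h, rfl⟩⟩
    have hKW : K ≤ W := fun k hk => (hmemW (hKL hk)).2 ((hπ1 (hKL hk)).2 hk ▸ V.one_mem)
    set V₀ := (P : Subgroup G) ⊓ W with hV₀
    have hUV : U < V₀ := by
      refine lt_of_le_of_ne (le_inf hUP (le_sup_left.trans hKW)) fun e => hV ?_
      rw [eq_bot_iff]
      intro v hv
      obtain ⟨⟨y, hyL⟩, hy, rfl⟩ := (hPX ▸ hVP hv : v ∈ ((P : Subgroup G).subgroupOf L).map π)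
      have hyU : y ∈ U := e ▸ (⟨hy, (hmemW hyL).2 hv⟩ : y ∈ V₀)
      exact (hπ1 hyL).2 ((le_sup_left : U ≤ K) hyU)
    obtain ⟨⟨y₀, hy₀L⟩, rfl⟩ := QuotientGroup.mk'_surjective _ x
    have hidx : ¬ 2 ∣ V₀.relIndex W := by
      have hKidx : ¬ 2 ∣ U.relIndex K := by
        have h2 := H22.sylow_not_dvd_relIndex_normal PL (K.subgroupOf L)
        rw [show (PL : Subgroup L) = (P : Subgroup G).subgroupOf L from rfl,
          Subgroup.relIndex_subgroupOf hKL, ← Subgroup.inf_relIndex_right] at h2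
        rwa [show U = (P : Subgroup G) ⊓ K from le_antisymm (le_inf hUP le_sup_left) hPK]
      haveI : (K.subgroupOf W).Normal :=
        Subgroup.normal_subgroupOf_of_le_normalizer (hWL.trans hKn)
      set f := (QuotientGroup.mk' (K.subgroupOf W)).comp
        (Subgroup.inclusion (inf_le_right : V₀ ≤ W)) with hf
      have hs : Function.Surjective f := by
        intro z
        obtain ⟨⟨y, hy⟩, rfl⟩ := QuotientGroup.mk'_surjective _ z
        obtain ⟨⟨v, hvL⟩, hv, e⟩ :=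
          (hPX ▸ hVP ((hmemW (hWL hy)).1 hy) : π ⟨y, hWL hy⟩ ∈ ((P : Subgroup G).subgroupOf L).map π)
        have hvW : v ∈ W := (hmemW hvL).2 (by rw [e]; exact (hmemW (hWL hy)).1 hy)
        have hk : v⁻¹ * y ∈ K := (hπ1 (mul_mem (inv_mem hvL) (hWL hy))).1 (by
          rw [show (⟨v⁻¹ * y, _⟩ : L) = ⟨v, hvL⟩⁻¹ * ⟨y, hWL hy⟩ from rfl, map_mul, map_inv, e,
            inv_mul_cancel])
        refine ⟨⟨v, hv, hvW⟩, ?_⟩
        show QuotientGroup.mk' (K.subgroupOf W) ⟨v, hvW⟩ = _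
        rw [QuotientGroup.mk'_apply, QuotientGroup.mk'_apply, QuotientGroup.eq,
          Subgroup.mem_subgroupOf]
        simpa using hk
      have hker : f.ker = U.subgroupOf V₀ := by
        ext ⟨v, hv⟩
        rw [MonoidHom.mem_ker, hf, MonoidHom.comp_apply, QuotientGroup.mk'_apply,
          QuotientGroup.eq_one_iff, Subgroup.mem_subgroupOf, Subgroup.mem_subgroupOf]
        exact ⟨fun h => hPK ⟨hv.1, h⟩, fun h => (le_sup_left : U ≤ K) h⟩
      have hKW' : K.relIndex W = U.relIndex V₀ := by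
        rw [Subgroup.relIndex, Subgroup.relIndex, ← hker, Subgroup.index_ker, Subgroup.index_eq_card]
        exact (Nat.card_congr ((Equiv.setCongr (congrArg (SetLike.coe)
          (MonoidHom.range_eq_top.2 hs))).trans (Equiv.Set.univ _))).symm
      have e : ∀ {A B : Subgroup G}, A ≤ B → Nat.card A * A.relIndex B = Nat.card B := by
        intro A B hAB
        rw [← Subgroup.relIndex_bot_left, ← Subgroup.relIndex_bot_left (H := B),
          Subgroup.relIndex_mul_relIndex _ _ _ bot_le hAB]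
      have e1 : Nat.card V₀ * V₀.relIndex W = Nat.card V₀ * U.relIndex K := by
        rw [e inf_le_right, ← e hKW, hKW', ← e (le_sup_left : U ≤ K), ← e hUV.le]
        ring
      rwa [Nat.eq_of_mul_eq_mul_left Nat.card_pos e1]
    have hyn : y₀ ∈ Subgroup.normalizer (W : Set G) := Subgroup.mem_normalizer_fintype fun w hw => by
      refine (hmemW (mul_mem (mul_mem hy₀L (hWL hw)) (inv_mem hy₀L))).2 ?_
      exact (Subgroup.mem_normalizer_iff.1 hx _).1 ((hmemW (hWL hw)).1 hw)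
    obtain ⟨k, hk, hak⟩ := exists_mem_normalizer_mul (P.2.to_le inf_le_left) inf_le_right hidx hyn
    -- absorb the part of `k` in `V₀`
    obtain ⟨⟨v, hvL⟩, hv, e⟩ :=
      (hPX ▸ hVP ((hmemW (hWL hk)).1 hk) : π ⟨k, hWL hk⟩ ∈ ((P : Subgroup G).subgroupOf L).map π)
    have hvV : v ∈ V₀ := ⟨hv, (hmemW hvL).2 (by rw [e]; exact (hmemW (hWL hk)).1 hk)⟩
    have hak' : y₀ * k * v⁻¹ ∈ Subgroup.normalizer (V₀ : Set G) :=
      mul_mem hak (inv_mem (Subgroup.le_normalizer hvV))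
    have hakL : y₀ * k * v⁻¹ ∈ L := mul_mem (mul_mem hy₀L (hWL hk)) (inv_mem hvL)
    have hπak : π ⟨y₀ * k * v⁻¹, hakL⟩ = π ⟨y₀, hy₀L⟩ := by
      rw [show (⟨y₀ * k * v⁻¹, hakL⟩ : L) = ⟨y₀, hy₀L⟩ * ⟨k, hWL hk⟩ * ⟨v, hvL⟩⁻¹ from rfl,
        map_mul, map_mul, map_inv, e, mul_inv_cancel_right]
    obtain ⟨w, hw, hwo, hwπ⟩ := exists_odd_rep π (hπak ▸ hxo)
    have hwN : (w : G) ∈ Subgroup.normalizer (V₀ : Set G) := by
      obtain ⟨i, rfl⟩ := Subgroup.mem_zpowers_iff.1 hw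
      rw [Subgroup.coe_zpow]
      exact zpow_mem hak' i
    have h1 := hmax V₀ hUV inf_le_left _ hwN hwo
    rw [← hπak, ← hwπ]
    exact (hπ1 w.2).2 ((le_sup_right : C ≤ K)
      (Subgroup.centralizer_le (SetLike.coe_subset_coe.2 hUV.le) h1))
  -- normal `2`-complement
  have h2grp : ∀ x : L ⧸ K.subgroupOf L, (∀ y ∈ Subgroup.zpowers x, Odd (orderOf y) → y = 1) →
      ∃ k, orderOf x = 2 ^ k := by
    intro x hx
    obtain ⟨y, z, -, hz, hyz, ⟨k, hk⟩, hco⟩ :=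
      H86.exists_pPart_mul_pPrimePart x (isOfFinOrder_of_finite x) Nat.prime_two
    have hz1 := hx z hz (Nat.coprime_two_right.1 hco)
    rw [hz1, mul_one] at hyz
    exact ⟨k, hyz ▸ hk⟩
  have hh₀ : π ⟨h₀, hmv.1⟩ ≠ 1 := fun e => by
    have hm : h₀ ∈ K := (hπ1 hmv.1).1 e
    replace hm : h₀ ∈ ((U ⊔ C : Subgroup G) : Set G) := hm
    rw [Subgroup.coe_mul_of_left_le_normalizer_right U C
      (Subgroup.le_normalizer.trans H33.normalizer_le_normalizer_centralizer)] at hm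
    obtain ⟨u, hu, c, hc, e'⟩ := hm
    set f := QuotientGroup.mk' (C.subgroupOf L)
    have hf : f ⟨h₀, hmv.1⟩ = f ⟨u, Subgroup.le_normalizer hu⟩ := by
      rw [show (⟨h₀, hmv.1⟩ : L) = ⟨u, Subgroup.le_normalizer hu⟩ *
        ⟨c, Subgroup.centralizer_le_normalizer _ hc⟩ from Subtype.ext e'.symm, map_mul,
        show f ⟨c, Subgroup.centralizer_le_normalizer _ hc⟩ = 1 from (QuotientGroup.eq_one_iff _).2 hc,
        mul_one]
    obtain ⟨n, hn⟩ := (P.2.to_le hUP) ⟨u, hu⟩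
    have h1 : f ⟨h₀, hmv.1⟩ = 1 := by
      rw [← orderOf_eq_one_iff]
      refine Nat.eq_one_of_dvd_coprimes (Nat.Coprime.pow_right n (Nat.coprime_two_right.2 hmv.2.1))
        ((orderOf_map_dvd f _).trans (dvd_of_eq (Subgroup.orderOf_coe _).symm)) ?_
      refine orderOf_dvd_of_pow_eq_one ?_
      rw [hf, ← map_pow, show (⟨u, Subgroup.le_normalizer hu⟩ : L) ^ 2 ^ n = 1 from
        Subtype.ext (by simpa using congrArg Subtype.val hn), map_one]
    exact hmv.2.2 ((QuotientGroup.eq_one_iff (N := C.subgroupOf L) (⟨h₀, hmv.1⟩ : L)).1 h1)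
  have hh₀o : Odd (orderOf (π ⟨h₀, hmv.1⟩)) :=
    hmv.2.1.of_dvd_nat ((orderOf_map_dvd π _).trans (dvd_of_eq (Subgroup.orderOf_coe _).symm))
  have hsub : Subgroup.normalizer ((PX : Subgroup (L ⧸ K.subgroupOf L)) : Set (L ⧸ K.subgroupOf L)) ≤
      Subgroup.centralizer ((PX : Subgroup (L ⧸ K.subgroupOf L)) : Set (L ⧸ K.subgroupOf L)) := by
    rcases eq_or_ne (PX : Subgroup (L ⧸ K.subgroupOf L)) ⊥ with hb | hb
    · rw [hb]; intro x _; rw [Subgroup.mem_centralizer_iff]; intro y hy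
      rw [Subgroup.mem_bot.1 hy, one_mul, mul_one]
    intro x hx
    refine Subgroup.mem_centralizer_iff.2 fun y hy => hab y hy x ?_
    have hp : IsPGroup 2 (Subgroup.zpowers x) := by
      obtain ⟨k, hk⟩ := h2grp x fun y hy ho => hloc _ le_rfl hb y ((Subgroup.zpowers_le.2 hx) hy) ho
      exact IsPGroup.of_card (n := k) (by rw [Nat.card_zpowers, hk])
    have h1 : Subgroup.zpowers x ⊔ (PX : Subgroup _) = (PX : Subgroup _) :=
      PX.3 (hp.to_sup_of_normal_right' PX.2 (Subgroup.zpowers_le.2 hx)) le_sup_right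
    exact h1 ▸ (le_sup_left : _ ≤ Subgroup.zpowers x ⊔ (PX : Subgroup _)) (Subgroup.mem_zpowers x)
  set R := (MonoidHom.transferSylow PX hsub).ker with hR
  have hcompl := MonoidHom.ker_transferSylow_isComplement' PX hsub
  have hRodd : ∀ r ∈ R, Odd (orderOf r) := fun r hr => by
    refine (Nat.not_even_iff_odd).1 fun he => ?_
    exact MonoidHom.not_dvd_card_ker_transferSylow PX hsub
      (even_iff_two_dvd.1 he |>.trans (R.orderOf_dvd_natCard hr))
  have hR1 : π ⟨h₀, hmv.1⟩ ∈ R := by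
    rw [hR, MonoidHom.mem_ker, ← orderOf_eq_one_iff]
    obtain ⟨n, hn⟩ := PX.2 (MonoidHom.transferSylow PX hsub (π ⟨h₀, hmv.1⟩))
    exact Nat.eq_one_of_dvd_coprimes ((Nat.coprime_two_right.2 hh₀o).pow_right n)
      (orderOf_map_dvd _ _) (orderOf_dvd_of_pow_eq_one hn)
  have hfree : ∀ s ∈ (PX : Subgroup (L ⧸ K.subgroupOf L)), s ≠ 1 → ∀ r ∈ R, s * r * s⁻¹ = r → r = 1 := by
    intro s hs hs1 r hr e
    refine hloc (Subgroup.zpowers s) (Subgroup.zpowers_le.2 hs)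
      (mt Subgroup.zpowers_eq_bot.1 hs1) r ?_ (hRodd r hr)
    refine Subgroup.mem_normalizer_fintype fun y hy => ?_
    obtain ⟨i, rfl⟩ := Subgroup.mem_zpowers_iff.1 hy
    rw [← conj_zpow, show r * s * r⁻¹ = s by
      rw [mul_inv_eq_iff_eq_mul.1 e |>.symm]; group]
    exact zpow_mem (Subgroup.mem_zpowers s) i
  have hsq : ∀ p ∈ (P : Subgroup G), p ^ 2 ∈ U := by
    intro p hp
    by_contra hpU
    have hpL : p ∈ L := hPL hp
    set s : L := ⟨p ^ 2, pow_mem hpL 2⟩ with hs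
    have hs1 : π s ≠ 1 := fun e => hpU (hPK ⟨pow_mem hp 2, (hπ1 _).1 e⟩)
    have hsP : π s ∈ (PX : Subgroup (L ⧸ K.subgroupOf L)) :=
      hPX ▸ ⟨s, show p ^ 2 ∈ (P : Subgroup G) from pow_mem hp 2, rfl⟩
    have hΦ : (frattini U).map U.subtype ≤ U := Subgroup.map_subtype_le _
    have hLΦ : L ≤ Subgroup.normalizer (((frattini U).map U.subtype : Subgroup G) : Set G) :=
      H55.normalizer_le_normalizer_char U (frattini U)
    set T := trivModulo U ((frattini U).map U.subtype) hΦ with hT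
    have hq : IsPGroup 2 U := P.2.to_le hUP
    have hKT : K ≤ T := by
      refine sup_le (fun x hx => ⟨Subgroup.le_normalizer hx, hLΦ (Subgroup.le_normalizer hx),
        fun u hu => ⟨⁅(⟨x, hx⟩ : U), ⟨u, hu⟩⁆, H24.commutator_le_frattini hq
          (Subgroup.commutator_mem_commutator (Subgroup.mem_top _) (Subgroup.mem_top _)),
          by simp [commutatorElement_def]⟩⟩) fun x hx => ?_
      refine ⟨Subgroup.centralizer_le_normalizer _ hx, hLΦ (Subgroup.centralizer_le_normalizer _ hx),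
        fun u hu => ?_⟩
      rw [show x * u * x⁻¹ * u⁻¹ = 1 by rw [← Subgroup.mem_centralizer_iff.1 hx u hu]; group]
      exact one_mem _
    have hpT : p ^ 2 ∈ T := by
      refine ⟨pow_mem hpL 2, hLΦ (pow_mem hpL 2), fun u hu => ?_⟩
      have hz := hcl p hp u (hUP hu)
      set z := p * u * p⁻¹ * u⁻¹ with hzdef
      have hpz : p * z = z * p := Subgroup.mem_centralizer_iff.1 hz.2 p hp
      have e : p ^ 2 * u * (p ^ 2)⁻¹ * u⁻¹ = z ^ 2 := by
        calc p ^ 2 * u * (p ^ 2)⁻¹ * u⁻¹ = p * z * (u * p⁻¹ * u⁻¹) := by rw [hzdef, sq]; group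
          _ = z * (p * u * p⁻¹ * u⁻¹) := by rw [hpz]; group
          _ = z ^ 2 := by rw [← hzdef, sq]
      rw [e]
      have hzU : z ∈ U := hCU ⟨hz.1, Subgroup.centralizer_le (SetLike.coe_subset_coe.2 hUP) hz.2⟩
      exact ⟨⟨z, hzU⟩ ^ 2, H24.pow_mem_frattini hq _, rfl⟩
    -- the commutator of `s` with an element of `R` centralises `U`
    obtain ⟨⟨y, hy⟩, hyπ⟩ := QuotientGroup.mk'_surjective _ (π ⟨h₀, hmv.1⟩)
    set c := π s * π ⟨h₀, hmv.1⟩ * (π s)⁻¹ * (π ⟨h₀, hmv.1⟩)⁻¹ with hc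
    have hcR : c ∈ R := R.mul_mem
      ((inferInstance : R.Normal).conj_mem _ hR1 _) (R.inv_mem hR1)
    set cg : L := s * ⟨h₀, hmv.1⟩ * s⁻¹ * ⟨h₀, hmv.1⟩⁻¹ with hcg
    have hπc : π cg = c := by rw [hcg, hc, map_mul, map_mul, map_mul, map_inv, map_inv]
    obtain ⟨w, hw, hwo, hwπ⟩ := exists_odd_rep π (hπc ▸ hRodd c hcR)
    have hcT : (cg : G) ∈ T := by
      have h5 := trivModulo_conj (T.inv_mem hpT) hmv.1 (hLΦ hmv.1)
      have h6 := T.mul_mem hpT h5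
      simpa [hcg, hs, mul_assoc] using h6
    have hwT : (w : G) ∈ T := by
      obtain ⟨i, rfl⟩ := Subgroup.mem_zpowers_iff.1 hw
      rw [Subgroup.coe_zpow]
      exact zpow_mem hcT i
    have hwC : (w : G) ∈ C := by
      refine H20.le_centralizer_of_trivial_on_frattini (A := Subgroup.zpowers (w : G))
        (Subgroup.zpowers_le.2 w.2) ?_ ?_ (Subgroup.mem_zpowers _)
      · obtain ⟨n, hn⟩ := IsPGroup.iff_card.1 (hq.to_subgroup (frattini U))
        rw [Nat.card_zpowers, hn]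
        exact (Nat.coprime_two_right.2 hwo).pow_right n
      · intro a ha u hu
        exact ((Subgroup.zpowers_le.2 hwT) ha).2.2 u hu
    have hc1 : c = 1 := by rw [← hπc, ← hwπ]; exact (hπ1 w.2).2 ((le_sup_right : C ≤ K) hwC)
    rw [hc, mul_inv_eq_one] at hc1
    exact hh₀ (hfree _ hsP hs1 _ hR1 hc1)
  have hinv : ∀ p : L, (p : G) ∈ (P : Subgroup G) → π p ≠ 1 → ∀ r ∈ R,
      π p * r * (π p)⁻¹ = r⁻¹ := by
    intro p hp hp1 r hr
    have hp2 : π p * π p = 1 := by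
      rw [← map_mul]
      exact (hπ1 (p * p).2).2 ((le_sup_left : U ≤ K) (show (p : G) * p ∈ U by rw [← sq]; exact hsq p hp))
    let φ : R →* R :=
      { toFun := fun x => ⟨π p * x * (π p)⁻¹, (inferInstance : R.Normal).conj_mem _ x.2 _⟩
        map_one' := Subtype.ext (by simp)
        map_mul' := fun a b => Subtype.ext (by simp [mul_assoc]) }
    have hffree : MonoidHom.FixedPointFree φ := fun x hx =>
      Subtype.ext (hfree (π p) (hPX ▸ ⟨p, hp, rfl⟩) hp1 x x.2 (congrArg Subtype.val hx))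
    have hinv2 : Function.Involutive φ := fun x => Subtype.ext (by
      show π p * (π p * x * (π p)⁻¹) * (π p)⁻¹ = x
      rw [show π p * (π p * (x : L ⧸ K.subgroupOf L) * (π p)⁻¹) * (π p)⁻¹ =
        π p * π p * x * (π p * π p)⁻¹ by group, hp2]
      group)
    exact congrArg Subtype.val (congrFun (hffree.coe_eq_inv_of_involutive hinv2) ⟨r, hr⟩)
  obtain ⟨t, ht, htU⟩ : ∃ t ∈ (P : Subgroup G), t ∉ U := by
    by_contra hc
    push Not at hc
    have e : U = (P : Subgroup G) := le_antisymm hUP fun x hx => hc x hx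
    have h9 : h₀ ∈ Subgroup.normalizer ((P : Subgroup G) : Set G) := e ▸ hmv.1
    exact hmv.2.2 (e ▸ hNP h₀ h9 hmv.2.1)
  have ht1 : π ⟨t, hPL ht⟩ ≠ 1 := fun e => htU (hPK ⟨ht, (hπ1 _).1 e⟩)
  refine ⟨U, h₀, t, hUP, hmv, hCU, hPL, ht, htU, fun x hx => ?_, ?_⟩
  · by_contra hcon
    push Not at hcon
    obtain ⟨h1, h2⟩ := hcon
    have hx1 : π ⟨x, hPL hx⟩ ≠ 1 := fun e => h1 (hPK ⟨hx, (hπ1 _).1 e⟩)
    have hy1 : (π ⟨t, hPL ht⟩)⁻¹ * π ⟨x, hPL hx⟩ ≠ 1 := fun e => by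
      have e' : π (⟨t, hPL ht⟩⁻¹ * ⟨x, hPL hx⟩) = 1 := by rw [map_mul, map_inv]; exact e
      exact h2 (hPK ⟨(P : Subgroup G).mul_mem ((P : Subgroup G).inv_mem ht) hx, (hπ1 _).1 e'⟩)
    have hy2 := hinv (⟨t, hPL ht⟩⁻¹ * ⟨x, hPL hx⟩) (mul_mem (inv_mem ht) hx)
      (by rw [map_mul, map_inv]; exact hy1) _ hR1
    rw [map_mul, map_inv] at hy2
    have h3 := hinv _ hx hx1 _ hR1
    have h4 := hinv _ ht ht1 _ hR1
    set r := π ⟨h₀, hmv.1⟩
    have h5 : r⁻¹ = r := by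
      calc r⁻¹ = (π ⟨t, hPL ht⟩)⁻¹ * (π ⟨x, hPL hx⟩ * r * (π ⟨x, hPL hx⟩)⁻¹) * π ⟨t, hPL ht⟩ := by
            rw [← hy2]; group
        _ = (π ⟨t, hPL ht⟩)⁻¹ * r⁻¹ * π ⟨t, hPL ht⟩ := by rw [h3]
        _ = (π ⟨t, hPL ht⟩)⁻¹ * (π ⟨t, hPL ht⟩ * r * (π ⟨t, hPL ht⟩)⁻¹) * π ⟨t, hPL ht⟩ := by rw [h4]
        _ = r := by group
    exact hh₀ (eq_one_of_commutes_odd hh₀o (by rw [sq]; nth_rw 1 [← h5]; exact inv_mul_cancel _))
  · refine (hπ1 (mul_mem (mul_mem (mul_mem (hPL ht) hmv.1) (inv_mem (hPL ht))) hmv.1)).1 ?_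
    rw [show (⟨t * h₀ * t⁻¹ * h₀, _⟩ : L) = ⟨t, hPL ht⟩ * ⟨h₀, hmv.1⟩ * ⟨t, hPL ht⟩⁻¹ * ⟨h₀, hmv.1⟩
      from rfl, map_mul, map_mul, map_mul, map_inv, hinv _ ht ht1 _ hR1, inv_mul_cancel]

end Cfsg.Agent.H54
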