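import Cfsg.Agent.H54.ClassTwoInverted

/-!
# The layer `U = D × C` of an inverted element
-/

set_option autoImplicit false
open scoped Pointwise

namespace Cfsg.Agent.H54

universe u

variable {G : Type u} [Group G]

/-- `U` of index two in `P` with `U = D C`, `D` central elementary and not central in `P`, and an
element `h` fixing `C` and moving `D`. -/
structure IsTwoLayer (P U D C : Subgroup G) : Prop where
  le_P : U ≤ P
  centre_le : P ⊓ Subgroup.centralizer (P : Set G) ≤ U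
  index_two : ∃ t ∈ P, t ∉ U ∧ ∀ x ∈ P, x ∈ U ∨ t⁻¹ * x ∈ U
  D_le : D ≤ U ⊓ Subgroup.centralizer (U : Set G)
  disjoint : D ⊓ C = ⊥
  D_normal : P ≤ Subgroup.normalizer (D : Set G)
  sq_D : ∀ d ∈ D, d ^ 2 = 1
  prod : ∀ u ∈ U, ∃ d ∈ D, ∃ c ∈ C, u = d * c
  noncentral : ∃ d ∈ D, d ∉ Subgroup.centralizer (P : Set G)
  mover : ∃ h : G, Odd (orderOf h) ∧ h ∈ Subgroup.normalizer (D : Set G) ∧
    C ≤ Subgroup.centralizer ({h} : Set G) ∧ h ∉ Subgroup.centralizer (D : Set G)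

variable [Finite G]

/-- An inverted element gives a layer. -/
theorem exists_twoLayer (P : Sylow 2 G) (hcl : ClassTwo (P : Subgroup G))
    (hno : ¬ Cfsg.HasNormalPComplement 2 G)
    (hNP : ∀ g ∈ Subgroup.normalizer ((P : Subgroup G) : Set G), Odd (orderOf g) →
      g ∈ Subgroup.centralizer ((P : Subgroup G) : Set G)) :
    ∃ U D C : Subgroup G, IsTwoLayer (P : Subgroup G) U D C := by
  obtain ⟨U, h, t, hUP, ⟨hhn, hho, hhc⟩, hCU, hPL, ht, htU, hidx, hth⟩ :=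
    exists_inverted P hcl hno hNP
  set W := U ⊓ Subgroup.centralizer (U : Set G) with hW
  have hWU : W ≤ U := inf_le_left
  have hWcomm : ∀ a ∈ W, ∀ b ∈ W, a * b = b * a := fun a ha b hb =>
    Subgroup.mem_centralizer_iff.1 hb.2 a ha.1
  have hnW : ∀ {g : G}, g ∈ Subgroup.normalizer (U : Set G) →
      g ∈ Subgroup.normalizer (W : Set G) := fun hg =>
    Subgroup.inf_normalizer_le_normalizer_inf ⟨hg, H33.normalizer_le_normalizer_centralizer hg⟩
  have hKC : U ⊔ Subgroup.centralizer (U : Set G) ≤ Subgroup.centralizer (W : Set G) :=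
    sup_le (fun a ha => Subgroup.mem_centralizer_iff.2 fun b hb =>
      (Subgroup.mem_centralizer_iff.1 hb.2 a ha).symm)
      (Subgroup.centralizer_le (SetLike.coe_subset_coe.2 hWU))
  -- `t` inverts `h` on `W`
  have hinv : ∀ w ∈ W, t * (h * w * h⁻¹) * t⁻¹ = h⁻¹ * (t * w * t⁻¹) * h := by
    intro w hw
    have hw' : t * w * t⁻¹ ∈ W := (Subgroup.mem_normalizer_iff.1 (hnW (hPL ht)) w).1 hw
    set x := h⁻¹ * (t * w * t⁻¹) * h with hx
    have hxW : x ∈ W := (Subgroup.mem_normalizer_iff''.1 (hnW hhn) _).1 hw'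
    have h2 := Subgroup.mem_centralizer_iff.1 (hKC hth) x hxW
    calc t * (h * w * h⁻¹) * t⁻¹ = (t * h * t⁻¹ * h) * x * (t * h * t⁻¹ * h)⁻¹ := by rw [hx]; group
      _ = x := by rw [← h2]; group
  -- `h` acts trivially on `U / W`
  have hzW : ∀ a ∈ (P : Subgroup G), ∀ b ∈ (P : Subgroup G), a * b * a⁻¹ * b⁻¹ ∈ W := fun a ha b hb =>
    have h1 := hcl a ha b hb
    ⟨hCU ⟨h1.1, Subgroup.centralizer_le (SetLike.coe_subset_coe.2 hUP) h1.2⟩,
      Subgroup.centralizer_le (SetLike.coe_subset_coe.2 hUP) h1.2⟩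
  set T := trivModulo U W hWU with hT
  have hPT : ∀ a ∈ (P : Subgroup G), a ∈ T := fun a ha =>
    ⟨hPL ha, hnW (hPL ha), fun u hu => hzW a ha u (hUP hu)⟩
  have hKT : U ⊔ Subgroup.centralizer (U : Set G) ≤ T := by
    refine sup_le (fun a ha => hPT a (hUP ha)) fun a ha => ?_
    refine ⟨Subgroup.centralizer_le_normalizer _ ha, hnW (Subgroup.centralizer_le_normalizer _ ha),
      fun u hu => ?_⟩
    rw [show a * u * a⁻¹ * u⁻¹ = 1 by rw [← Subgroup.mem_centralizer_iff.1 ha u hu]; group]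
    exact one_mem _
  have hhT : h ∈ T := by
    refine mem_of_sq_mem hho ?_
    have h1 : h * t⁻¹ * h⁻¹ ∈ T := trivModulo_conj (T.inv_mem (hPT t ht)) hhn (hnW hhn)
    have h2 := T.mul_mem (T.inv_mem h1) (T.mul_mem (T.inv_mem (hPT t ht)) (hKT hth))
    have e : (h * t⁻¹ * h⁻¹)⁻¹ * (t⁻¹ * (t * h * t⁻¹ * h)) = h ^ 2 := by rw [sq]; group
    rwa [e] at h2
  -- the fixed points and the moved part
  set C := U ⊓ Subgroup.centralizer ({h} : Set G) with hC
  let δ : W → W := fun w => ⟨h * (w : G) * h⁻¹ * (w : G)⁻¹,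
    W.mul_mem ((Subgroup.mem_normalizer_iff.1 (hnW hhn) (w : G)).1 w.2) (W.inv_mem w.2)⟩
  have hδmul : ∀ a b : W, δ (a * b) = δ a * δ b := fun a b => Subtype.ext (by
    show h * ((a : G) * b) * h⁻¹ * ((a : G) * b)⁻¹ =
      (h * (a : G) * h⁻¹ * (a : G)⁻¹) * (h * (b : G) * h⁻¹ * (b : G)⁻¹)
    have e := hWcomm _ (δ b).2 (a : G)⁻¹ (W.inv_mem a.2)
    calc h * ((a : G) * b) * h⁻¹ * ((a : G) * b)⁻¹
        = h * (a : G) * h⁻¹ * ((h * (b : G) * h⁻¹ * (b : G)⁻¹) * (a : G)⁻¹) := by group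
      _ = h * (a : G) * h⁻¹ * ((a : G)⁻¹ * (h * (b : G) * h⁻¹ * (b : G)⁻¹)) := by
          rw [show (h * (b : G) * h⁻¹ * (b : G)⁻¹) * (a : G)⁻¹ =
            (a : G)⁻¹ * (h * (b : G) * h⁻¹ * (b : G)⁻¹) from e]
      _ = _ := by group)
  let δh : W →* W := MonoidHom.mk' δ hδmul
  set D : Subgroup G := δh.range.map W.subtype with hD
  have hDW : D ≤ W := Subgroup.map_subtype_le _
  have hmemD : ∀ {x : G}, x ∈ D ↔ ∃ w ∈ W, x = h * w * h⁻¹ * w⁻¹ := fun {x} => by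
    constructor
    · rintro ⟨_, ⟨w, rfl⟩, rfl⟩; exact ⟨w, w.2, rfl⟩
    · rintro ⟨w, hw, rfl⟩; exact ⟨_, ⟨⟨w, hw⟩, rfl⟩, rfl⟩
  have hpow : ∀ (x : G), x ∈ W → ∀ n : ℕ, h ^ n * x * (h ^ n)⁻¹ ∈ W := fun x hx n =>
    (Subgroup.mem_normalizer_iff.1 (pow_mem (hnW hhn) n) x).1 hx
  have hdisj : D ⊓ C = ⊥ := by
    rw [eq_bot_iff]
    rintro x ⟨hxD, hxC⟩
    obtain ⟨w, hw, rfl⟩ := hmemD.1 hxD
    set x := h * w * h⁻¹ * w⁻¹ with hx
    have hfix : ∀ n : ℕ, h ^ n * w * (h ^ n)⁻¹ = x ^ n * w := by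
      intro n
      induction n with
      | zero => simp
      | succ n ih =>
        have e : h * x = x * h := (Subgroup.mem_centralizer_singleton_iff.1 hxC.2).symm
        have e2 : h * x ^ n = x ^ n * h := ((show Commute h x from e).pow_right n).eq
        calc h ^ (n + 1) * w * (h ^ (n + 1))⁻¹ = h * (h ^ n * w * (h ^ n)⁻¹) * h⁻¹ := by
              rw [pow_succ']; group
          _ = h * x ^ n * w * h⁻¹ := by rw [ih]; group
          _ = x ^ n * (h * w * h⁻¹ * w⁻¹) * w := by rw [e2]; group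
          _ = x ^ (n + 1) * w := by rw [← hx, ← pow_succ]
    have h1 : x ^ orderOf h = 1 := by
      have := hfix (orderOf h)
      rw [pow_orderOf_eq_one] at this
      simpa using this.symm
    obtain ⟨k, hk⟩ := P.2 ⟨x, hUP (hWU (hDW hxD))⟩
    rw [Subgroup.mem_bot, ← orderOf_eq_one_iff]
    exact Nat.eq_one_of_dvd_coprimes ((Nat.coprime_two_right.2 hho).pow_right k)
      (orderOf_dvd_of_pow_eq_one h1)
      (orderOf_dvd_of_pow_eq_one (by simpa using congrArg Subtype.val hk))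
  have hDsurj : ∀ y ∈ D, ∃ d ∈ D, h * d * h⁻¹ * d⁻¹ = y := by
    let f : D → D := fun d => ⟨h * (d : G) * h⁻¹ * (d : G)⁻¹, hmemD.2 ⟨d, hDW d.2, rfl⟩⟩
    have hf : Function.Injective f := by
      intro a b e
      have e' : δh ⟨a, hDW a.2⟩ = δh ⟨b, hDW b.2⟩ := Subtype.ext (congrArg (fun z : D => (z : G)) e)
      have h1 : δh (⟨a, hDW a.2⟩ * ⟨b, hDW b.2⟩⁻¹) = 1 := by rw [map_mul, map_inv, e', mul_inv_cancel]
      have h2 : h * ((a : G) * (b : G)⁻¹) * h⁻¹ * ((a : G) * (b : G)⁻¹)⁻¹ = 1 :=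
        congrArg Subtype.val h1
      rw [mul_inv_eq_one, mul_inv_eq_iff_eq_mul] at h2
      have h3 : (a : G) * (b : G)⁻¹ ∈ D ⊓ C := ⟨D.mul_mem a.2 (D.inv_mem b.2),
        hWU (hDW (D.mul_mem a.2 (D.inv_mem b.2))), Subgroup.mem_centralizer_singleton_iff.2 h2.symm⟩
      rw [hdisj, Subgroup.mem_bot, mul_inv_eq_one] at h3
      exact Subtype.ext h3
    intro y hy
    obtain ⟨d, hd⟩ := (Finite.injective_iff_surjective.1 hf) ⟨y, hy⟩
    exact ⟨d, d.2, congrArg (fun z : D => (z : G)) hd⟩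
  have hWsplit : ∀ w ∈ W, ∃ d ∈ D, ∃ c ∈ C, w = d * c := by
    intro w hw
    obtain ⟨d, hd, hde⟩ := hDsurj _ (hmemD.2 ⟨w, hw, rfl⟩)
    refine ⟨d, hd, d⁻¹ * w, ⟨hWU (W.mul_mem (W.inv_mem (hDW hd)) hw),
      Subgroup.mem_centralizer_singleton_iff.2 ?_⟩, by group⟩
    have h1 : δh (⟨d, hDW hd⟩⁻¹ * ⟨w, hw⟩) = 1 := by
      rw [map_mul, map_inv, show δh ⟨d, hDW hd⟩ = δh ⟨w, hw⟩ from Subtype.ext hde, inv_mul_cancel]
    have h2 : h * (d⁻¹ * w) * h⁻¹ * (d⁻¹ * w)⁻¹ = 1 := congrArg Subtype.val h1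
    rw [mul_inv_eq_one, mul_inv_eq_iff_eq_mul] at h2
    exact h2.symm
  have hhD : h ∈ Subgroup.normalizer (D : Set G) := by
    refine Subgroup.mem_normalizer_fintype fun x hx => ?_
    obtain ⟨w, hw, rfl⟩ := hmemD.1 hx
    exact hmemD.2 ⟨h * w * h⁻¹, (Subgroup.mem_normalizer_iff.1 (hnW hhn) w).1 hw, by group⟩
  have hUsplit : ∀ u ∈ U, ∃ d ∈ D, ∃ c ∈ C, u = d * c := by
    intro u hu
    have hy : h * u * h⁻¹ * u⁻¹ ∈ W := hhT.2.2 u hu
    obtain ⟨d₁, hd₁, c₁, hc₁, he⟩ := hWsplit _ hy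
    have hch : c₁ * h = h * c₁ := Subgroup.mem_centralizer_singleton_iff.1 hc₁.2
    have hc₁W : c₁ ∈ W := by
      have := W.mul_mem (W.inv_mem (hDW hd₁)) hy
      rwa [he, inv_mul_cancel_left] at this
    have hpw : ∀ n : ℕ, h ^ n * u * (h ^ n)⁻¹ * u⁻¹ * (c₁ ^ n)⁻¹ ∈ D := by
      intro n
      induction n with
      | zero => simp
      | succ n ih =>
        set z := h ^ n * u * (h ^ n)⁻¹ * u⁻¹ * (c₁ ^ n)⁻¹ with hz
        have h1 := (Subgroup.mem_normalizer_iff.1 hhD z).1 ih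
        have h2 : d₁ * c₁ * u = h * u * h⁻¹ := by rw [← he]; group
        have e : h * c₁ ^ n * h⁻¹ = c₁ ^ n := by
          rw [((show Commute c₁ h from hch).pow_left n).symm.eq]; group
        have hcom : c₁ ^ n * d₁ = d₁ * c₁ ^ n := hWcomm _ (W.pow_mem hc₁W n) _ (hDW hd₁)
        have key : h ^ (n + 1) * u * (h ^ (n + 1))⁻¹ * u⁻¹ * (c₁ ^ (n + 1))⁻¹ =
            h * z * h⁻¹ * d₁ := by
          calc h ^ (n + 1) * u * (h ^ (n + 1))⁻¹ * u⁻¹ * (c₁ ^ (n + 1))⁻¹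
              = h * z * h⁻¹ * (h * c₁ ^ n * h⁻¹ * (h * u * h⁻¹) * u⁻¹ * (c₁ ^ (n + 1))⁻¹) := by
                rw [hz, pow_succ' h]; group
            _ = h * z * h⁻¹ * (c₁ ^ n * d₁ * c₁ * (c₁ ^ (n + 1))⁻¹) := by rw [e, ← h2]; group
            _ = h * z * h⁻¹ * d₁ := by rw [hcom, mul_assoc d₁, ← pow_succ]; group
        rw [key]
        exact D.mul_mem h1 hd₁
    have hc1 : c₁ = 1 := by
      have h1 := hpw (orderOf h)
      rw [pow_orderOf_eq_one] at h1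
      simp only [one_mul, inv_one, mul_one, mul_inv_cancel] at h1
      have h2 : c₁ ^ orderOf h ∈ D ⊓ C := ⟨by simpa using D.inv_mem h1, C.pow_mem hc₁ _⟩
      rw [hdisj, Subgroup.mem_bot] at h2
      obtain ⟨k, hk⟩ := P.2 ⟨c₁, hUP hc₁.1⟩
      rw [← orderOf_eq_one_iff]
      exact Nat.eq_one_of_dvd_coprimes ((Nat.coprime_two_right.2 hho).pow_right k)
        (orderOf_dvd_of_pow_eq_one h2) (orderOf_dvd_of_pow_eq_one (by simpa using congrArg Subtype.val hk))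
    rw [hc1, mul_one] at he
    obtain ⟨d, hd, hde⟩ := hDsurj d₁ hd₁
    refine ⟨d, hd, d⁻¹ * u, ⟨U.mul_mem (U.inv_mem (hWU (hDW hd))) hu,
      Subgroup.mem_centralizer_singleton_iff.2 ?_⟩, by group⟩
    have h3 : h * d * h⁻¹ * d⁻¹ = h * u * h⁻¹ * u⁻¹ := by rw [hde, he]
    have hhd : h * d * h⁻¹ ∈ U := hWU (hDW ((Subgroup.mem_normalizer_iff.1 hhD d).1 hd))
    calc d⁻¹ * u * h = (h * d * h⁻¹)⁻¹ * (h * d * h⁻¹ * d⁻¹) * u * h := by group
      _ = (h * d * h⁻¹)⁻¹ * (h * u * h⁻¹ * u⁻¹) * u * h := by rw [h3]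
      _ = h * (d⁻¹ * u) := by group
  have hDn : (P : Subgroup G) ≤ Subgroup.normalizer (D : Set G) := by
    intro a ha
    refine Subgroup.mem_normalizer_fintype fun x hx => ?_
    rcases hidx a ha with haU | haU
    · have hc := Subgroup.mem_centralizer_iff.1 (hDW hx).2 a haU
      rwa [show a * x * a⁻¹ = x by rw [hc]; group]
    · have hax : t⁻¹ * a * x * (t⁻¹ * a)⁻¹ = x := by
        rw [Subgroup.mem_centralizer_iff.1 (hDW hx).2 _ haU]; group
      rw [show a * x * a⁻¹ = t * (t⁻¹ * a * x * (t⁻¹ * a)⁻¹) * t⁻¹ by group, hax]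
      obtain ⟨w, hw, rfl⟩ := hmemD.1 hx
      set w' := t * w * t⁻¹ with hw'
      have hw'W : w' ∈ W := (Subgroup.mem_normalizer_iff.1 (hnW (hPL ht)) w).1 hw
      rw [show t * (h * w * h⁻¹ * w⁻¹) * t⁻¹ = t * (h * w * h⁻¹) * t⁻¹ * w'⁻¹ by rw [hw']; group,
        hinv w hw]
      refine hmemD.2 ⟨(h⁻¹ * w' * h)⁻¹, W.inv_mem
        ((Subgroup.mem_normalizer_iff''.1 (hnW hhn) _).1 hw'W), ?_⟩
      have hc := hWcomm _ (W.inv_mem hw'W) _
        ((Subgroup.mem_normalizer_iff''.1 (hnW hhn) _).1 hw'W)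
      calc h⁻¹ * w' * h * w'⁻¹ = w'⁻¹ * (h⁻¹ * w' * h) := hc.symm
        _ = _ := by group
  -- `P` centralises the squares and commutators with `t`
  have hzfix : ∀ d ∈ D, t * (t * d * t⁻¹ * d⁻¹) * t⁻¹ = t * d * t⁻¹ * d⁻¹ := fun d hd => by
    have h1 := (hcl t ht d (hUP (hWU (hDW hd)))).2
    rw [Subgroup.mem_centralizer_iff.1 h1 t ht]; group
  have hfix1 : ∀ y ∈ D, t * y * t⁻¹ = y → t * (h * y * h⁻¹) * t⁻¹ = h * y * h⁻¹ → y = 1 := by
    intro y hy h1 h2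
    rw [hinv y (hDW hy), h1] at h2
    have h3 : h ^ 2 ∈ Subgroup.centralizer ({y} : Set G) := by
      rw [Subgroup.mem_centralizer_singleton_iff, sq]
      calc h * h * y = h * (h * y * h⁻¹) * h := by group
        _ = h * (h⁻¹ * y * h) * h := by rw [h2]
        _ = y * (h * h) := by group
    have h4 := mem_of_sq_mem hho h3
    have h5 : y ∈ D ⊓ C := ⟨hy, hWU (hDW hy), Subgroup.mem_centralizer_singleton_iff.2
      (Subgroup.mem_centralizer_singleton_iff.1 h4).symm⟩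
    rwa [hdisj, Subgroup.mem_bot] at h5
  have hsqfix : ∀ d ∈ D, t * d ^ 2 * t⁻¹ = d ^ 2 := by
    intro d hd
    set z := t * d * t⁻¹ * d⁻¹ with hz
    have htt : t * t ∈ U := by
      rcases hidx (t * t) ((P : Subgroup G).mul_mem ht ht) with h1 | h1
      · exact h1
      · exact absurd (by simpa using h1) htU
    have e1 : t * t * d * (t * t)⁻¹ = d := by
      rw [Subgroup.mem_centralizer_iff.1 (hDW hd).2 _ htt]; group
    have e2 : t * t * d * (t * t)⁻¹ = z * z * d := by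
      calc t * t * d * (t * t)⁻¹ = t * z * t⁻¹ * (t * d * t⁻¹) := by rw [hz]; group
        _ = z * (t * d * t⁻¹) := by rw [hzfix d hd]
        _ = _ := by rw [hz]; group
    have e3 : z * z = 1 := mul_right_cancel (b := d) (by rw [one_mul, ← e2, e1])
    have hzD : z ∈ D := D.mul_mem ((Subgroup.mem_normalizer_iff.1 (hDn ht) d).1 hd) (D.inv_mem hd)
    have hc : d * z = z * d := hWcomm _ (hDW hd) _ (hDW hzD)
    calc t * d ^ 2 * t⁻¹ = (t * d * t⁻¹) * (t * d * t⁻¹) := by rw [sq]; group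
      _ = z * d * (z * d) := by rw [hz]; group
      _ = z * (d * z) * d := by group
      _ = z * z * (d * d) := by rw [hc]; group
      _ = d ^ 2 := by rw [e3, one_mul, sq]
  refine ⟨U, D, C, hUP, fun x hx => hCU ⟨hx.1, Subgroup.centralizer_le (SetLike.coe_subset_coe.2 hUP) hx.2⟩,
    ⟨t, ht, htU, hidx⟩, hDW, hdisj, hDn, fun d hd => ?_, hUsplit, ?_, h, hho, hhD, inf_le_right, ?_⟩
  · refine hfix1 _ (D.pow_mem hd 2) (hsqfix d hd) ?_
    have e : h * d ^ 2 * h⁻¹ = (h * d * h⁻¹) ^ 2 := (conj_pow ..).symm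
    rw [e]
    exact hsqfix _ ((Subgroup.mem_normalizer_iff.1 hhD d).1 hd)
  · by_contra hc
    push Not at hc
    refine hhc (Subgroup.mem_centralizer_iff.2 fun u hu => ?_)
    obtain ⟨d, hd, c, hcC, rfl⟩ := hUsplit u hu
    have hD1 : ∀ y ∈ D, t * y * t⁻¹ = y := fun y hy => by
      rw [Subgroup.mem_centralizer_iff.1 (hc y hy) t ht]; group
    have hd1 : d = 1 := hfix1 d hd (hD1 d hd) (hD1 _ ((Subgroup.mem_normalizer_iff.1 hhD d).1 hd))
    rw [hd1, one_mul]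
    exact Subgroup.mem_centralizer_singleton_iff.1 hcC.2
  · intro hc
    refine hhc (Subgroup.mem_centralizer_iff.2 fun u hu => ?_)
    obtain ⟨d, hd, c, hcC, rfl⟩ := hUsplit u hu
    rw [mul_assoc, Subgroup.mem_centralizer_singleton_iff.1 hcC.2, ← mul_assoc,
      Subgroup.mem_centralizer_iff.1 hc d hd, mul_assoc]

end Cfsg.Agent.H54
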