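import Cfsg.Agent.H54.ClassTwoLayer
import Mathlib.GroupTheory.Perm.Cycle.Type

/-!
# An invariant moved subgroup

With operators of odd order, the layers of a class-two Sylow `2`-subgroup lead to an invariant
normal subgroup of it that is moved by an element of odd order.
-/

set_option autoImplicit false
open scoped Pointwise

namespace Cfsg.Agent.H54

universe u v

variable {G : Type u} [Group G]

namespace IsTwoLayer

variable {P U D C : Subgroup G} (h : IsTwoLayer P U D C)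
include h

theorem commute_U {d u : G} (hd : d ∈ D) (hu : u ∈ U) : d * u = u * d :=
  (Subgroup.mem_centralizer_iff.1 (h.D_le hd).2 u hu).symm

theorem mem_of_commute {d x : G} (hd : d ∈ D) (hd' : d ∉ Subgroup.centralizer (P : Set G))
    (hx : x ∈ P) (e : d * x = x * d) : x ∈ U := by
  obtain ⟨t, ht, htU, hidx⟩ := h.index_two
  by_contra hxU
  have h1 := (hidx x hx).resolve_left hxU
  have h2 : Commute d t := by
    have h3 := (show Commute d x from e).mul_right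
      (show Commute d (t⁻¹ * x)⁻¹ from (show Commute d (t⁻¹ * x) from h.commute_U hd h1).inv_right)
    simpa using h3
  refine hd' (Subgroup.mem_centralizer_iff.2 fun y hy => ?_)
  rcases hidx y hy with h3 | h3
  · exact (h.commute_U hd h3).symm
  · have h4 := h2.mul_right (show Commute d (t⁻¹ * y) from h.commute_U hd h3)
    rw [mul_inv_cancel_left] at h4
    exact h4.eq.symm

theorem inv_mul_mem {x y : G} (hx : x ∈ P) (hx' : x ∉ U) (hy : y ∈ P) (hy' : y ∉ U) :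
    x⁻¹ * y ∈ U := by
  obtain ⟨t, -, -, hidx⟩ := h.index_two
  have h1 := (hidx x hx).resolve_left hx'
  have h2 := (hidx y hy).resolve_left hy'
  simpa [mul_assoc] using U.mul_mem (U.inv_mem h1) h2

theorem conj_eq {d x y : G} (hd : d ∈ D) (hx : x ∈ P) (hx' : x ∉ U) (hy : y ∈ P) (hy' : y ∉ U) :
    x * d * x⁻¹ = y * d * y⁻¹ := by
  have h1 := h.commute_U hd (h.inv_mul_mem hx hx' hy hy')
  calc x * d * x⁻¹ = x * (d * (x⁻¹ * y)) * y⁻¹ := by group
    _ = y * d * y⁻¹ := by rw [h1]; group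

theorem sq_mem {u : G} (hu : u ∈ U) : u * u ∈ C := by
  obtain ⟨d, hd, c, hc, rfl⟩ := h.prod u hu
  have hcU : c ∈ U := by
    have := U.mul_mem (U.inv_mem (h.D_le hd).1) hu
    rwa [inv_mul_cancel_left] at this
  have e := h.commute_U hd hcU
  rw [show d * c * (d * c) = d * (c * d) * c by group, ← e,
    show d * (d * c) * c = d ^ 2 * (c * c) by rw [sq]; group, h.sq_D d hd, one_mul]
  exact C.mul_mem hc hc

theorem commutator_mem {u v : G} (hu : u ∈ U) (hv : v ∈ U) : u * v * u⁻¹ * v⁻¹ ∈ C := by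
  obtain ⟨d, hd, c, hc, rfl⟩ := h.prod u hu
  obtain ⟨e, he, c', hc', rfl⟩ := h.prod v hv
  have hcU : c ∈ U := by
    have := U.mul_mem (U.inv_mem (h.D_le hd).1) hu
    rwa [inv_mul_cancel_left] at this
  have hcU' : c' ∈ U := by
    have := U.mul_mem (U.inv_mem (h.D_le he).1) hv
    rwa [inv_mul_cancel_left] at this
  have e1 := h.commute_U hd (U.mul_mem (U.mul_mem hcU hv) (U.inv_mem hcU))
  have e2 := h.commute_U he (U.mul_mem (U.mul_mem hcU hcU') (U.inv_mem hcU))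
  have key : d * c * (e * c') * (d * c)⁻¹ * (e * c')⁻¹ = c * c' * c⁻¹ * c'⁻¹ := by
    calc d * c * (e * c') * (d * c)⁻¹ * (e * c')⁻¹
        = d * (c * (e * c') * c⁻¹) * d⁻¹ * (e * c')⁻¹ := by group
      _ = c * (e * c') * c⁻¹ * (c'⁻¹ * e⁻¹) := by rw [e1]; group
      _ = (e * (c * c' * c⁻¹)) * c'⁻¹ * e⁻¹ := by
          rw [show c * (e * c') * c⁻¹ = e * (c * c' * c⁻¹) by
            rw [show c * (e * c') = (c * e) * c' by group, ← h.commute_U he hcU]; group]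
          group
      _ = c * c' * c⁻¹ * c'⁻¹ := by
          have e3 := h.commute_U he (U.mul_mem (U.mul_mem (U.mul_mem hcU hcU') (U.inv_mem hcU))
            (U.inv_mem hcU'))
          rw [show e * (c * c' * c⁻¹) * c'⁻¹ * e⁻¹ = e * (c * c' * c⁻¹ * c'⁻¹) * e⁻¹ by group, e3]
          group
  rw [key]
  exact C.mul_mem (C.mul_mem (C.mul_mem hc hc') (C.inv_mem hc)) (C.inv_mem hc')

theorem map {ψ : G ≃* G} (hP : P.map ψ.toMonoidHom = P) :
    IsTwoLayer P (U.map ψ.toMonoidHom) (D.map ψ.toMonoidHom) (C.map ψ.toMonoidHom) := by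
  have hinj : Function.Injective ψ.toMonoidHom := ψ.injective
  have hcen : ∀ X : Subgroup G, (Subgroup.centralizer (X : Set G)).map ψ.toMonoidHom =
      Subgroup.centralizer ((X.map ψ.toMonoidHom : Subgroup G) : Set G) := fun X => by
    ext g
    simp only [Subgroup.mem_map, Subgroup.mem_centralizer_iff, SetLike.mem_coe]
    constructor
    · rintro ⟨y, hy, rfl⟩ _ ⟨x, hx, rfl⟩
      rw [← map_mul, ← map_mul, hy x hx]
    · intro hg
      obtain ⟨y, rfl⟩ := ψ.surjective g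
      exact ⟨y, fun x hx => hinj (by rw [map_mul, map_mul]; exact hg _ ⟨x, hx, rfl⟩), rfl⟩
  refine
    { le_P := hP ▸ Subgroup.map_mono h.le_P
      centre_le := ?_
      index_two := ?_
      D_le := ?_
      disjoint := by rw [← Subgroup.map_inf _ _ _ hinj, h.disjoint, Subgroup.map_bot]
      D_normal := ?_
      sq_D := ?_
      prod := ?_
      noncentral := ?_
      mover := ?_ }
  · calc P ⊓ Subgroup.centralizer (P : Set G)
        = (P ⊓ Subgroup.centralizer (P : Set G)).map ψ.toMonoidHom := by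
          rw [Subgroup.map_inf _ _ _ hinj, hcen, hP]
      _ ≤ U.map ψ.toMonoidHom := Subgroup.map_mono h.centre_le
  · obtain ⟨t, ht, htU, hidx⟩ := h.index_two
    refine ⟨ψ t, hP ▸ ⟨t, ht, rfl⟩, fun hm => htU ((Subgroup.mem_map_iff_mem hinj).1 hm), fun x hx => ?_⟩
    rw [← hP] at hx
    obtain ⟨y, hy, rfl⟩ := hx
    rcases hidx y hy with h1 | h1
    · exact Or.inl ⟨y, h1, rfl⟩
    · exact Or.inr ⟨_, h1, by simp⟩
  · rw [← hcen, ← Subgroup.map_inf _ _ _ hinj]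
    exact Subgroup.map_mono h.D_le
  · calc P = P.map ψ.toMonoidHom := hP.symm
      _ ≤ (Subgroup.normalizer (D : Set G)).map ψ.toMonoidHom := Subgroup.map_mono h.D_normal
      _ ≤ _ := Subgroup.le_normalizer_map _
  · rintro _ ⟨d, hd, rfl⟩
    rw [← map_pow, h.sq_D d hd, map_one]
  · rintro _ ⟨u, hu, rfl⟩
    obtain ⟨d, hd, c, hc, rfl⟩ := h.prod u hu
    exact ⟨_, ⟨d, hd, rfl⟩, _, ⟨c, hc, rfl⟩, map_mul _ _ _⟩
  · obtain ⟨d, hd, hd'⟩ := h.noncentral
    refine ⟨_, ⟨d, hd, rfl⟩, fun hm => hd' ?_⟩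
    rw [← hP, ← hcen] at hm
    exact (Subgroup.mem_map_iff_mem hinj).1 hm
  · obtain ⟨g, hg1, hg2, hg3, hg4⟩ := h.mover
    refine ⟨ψ g, by rwa [MulEquiv.orderOf_eq], Subgroup.le_normalizer_map _ ⟨g, hg2, rfl⟩, ?_, fun hm => ?_⟩
    · rintro _ ⟨c, hc, rfl⟩
      refine Subgroup.mem_centralizer_singleton_iff.2 ?_
      show ψ c * ψ g = ψ g * ψ c
      rw [← map_mul, ← map_mul, Subgroup.mem_centralizer_singleton_iff.1 (hg3 hc)]
    · rw [← hcen] at hm
      exact hg4 ((Subgroup.mem_map_iff_mem hinj).1 hm)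

end IsTwoLayer

variable {P : Subgroup G}

/-- Two noncommuting neighbours of a layer have the same `U`. -/
theorem twoLayer_neighbour_unique (hcl : ClassTwo P) {U₁ D₁ C₁ U₂ D₂ C₂ U₃ D₃ C₃ : Subgroup G}
    (h₁ : IsTwoLayer P U₁ D₁ C₁) (h₂ : IsTwoLayer P U₂ D₂ C₂) (h₃ : IsTwoLayer P U₃ D₃ C₃)
    {d e : G} (hd : d ∈ D₁) (he : e ∈ D₂) (hde : d * e ≠ e * d)
    {d' e' : G} (hd' : d' ∈ D₁) (he' : e' ∈ D₃) (hde' : d' * e' ≠ e' * d') : U₂ ≤ U₃ := by
  have heP : e ∈ P := h₂.le_P (h₂.D_le he).1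
  have heP' : e' ∈ P := h₃.le_P (h₃.D_le he').1
  have hdP : d ∈ P := h₁.le_P (h₁.D_le hd).1
  have hdc : d ∉ Subgroup.centralizer (P : Set G) := fun hc =>
    hde (Subgroup.mem_centralizer_iff.1 hc e heP).symm
  have hec : e ∉ Subgroup.centralizer (P : Set G) := fun hc =>
    hde (Subgroup.mem_centralizer_iff.1 hc d hdP)
  have he1 : e ∉ U₁ := fun hm => hde (h₁.commute_U hd hm)
  have he1' : e' ∉ U₁ := fun hm => hde' (h₁.commute_U hd' hm)
  have hde2 : d * e' ≠ e' * d := fun h => he1' (h₁.mem_of_commute hd hdc heP' h)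
  have hd2 : d ∉ U₂ := fun hm => hde (h₂.commute_U he hm).symm
  have hd3 : d ∉ U₃ := fun hm => hde2 (h₃.commute_U he' hm).symm
  have hec' : e' ∉ Subgroup.centralizer (P : Set G) := fun hc =>
    hde2 (Subgroup.mem_centralizer_iff.1 hc d hdP)
  have einv : ∀ {z : G}, z ^ 2 = 1 → z⁻¹ = z := fun {z} hz => by
    rw [inv_eq_iff_mul_eq_one, ← sq, hz]
  have hy : e * e' ∈ U₁ := by
    have := h₁.inv_mul_mem heP he1 heP' he1'
    rwa [einv (h₂.sq_D e he)] at this
  have hzD : ∀ {g : G}, g ∈ P → d * g * d⁻¹ * g⁻¹ ∈ D₁ := fun {g} hg => by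
    rw [show d * g * d⁻¹ * g⁻¹ = d * (g * d⁻¹ * g⁻¹) by group]
    exact D₁.mul_mem hd ((Subgroup.mem_normalizer_iff.1 (h₁.D_normal hg) _).1 (D₁.inv_mem hd))
  have hone : ∀ {g : G}, g ∈ P → d * g * d⁻¹ * g⁻¹ ∈ C₁ → d * g = g * d := fun {g} hg hc => by
    have h := Subgroup.mem_inf.2 ⟨hzD hg, hc⟩
    rw [h₁.disjoint, Subgroup.mem_bot, mul_inv_eq_one, mul_inv_eq_iff_eq_mul] at h
    exact h
  by_cases hee : e' ∈ U₂
  swap
  · exfalso
    have h1 := h₂.conj_eq he heP' hee hdP hd2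
    have h2 := h₁.sq_mem hy
    refine hde (hone heP ?_)
    set z := d * e * d⁻¹ * e⁻¹ with hz
    have hzc := Subgroup.mem_centralizer_iff.1 (hcl d hdP e heP).2 e heP
    rw [← hz] at hzc
    have e1 : e * e' * (e * e') = z := by
      calc e * e' * (e * e') = e * (e' * e * e'⁻¹) * e' ^ 2 := by rw [sq]; group
        _ = e * (z * e) := by rw [h₃.sq_D e' he', h1, mul_one, hz]; group
        _ = z * e ^ 2 := by rw [← mul_assoc, hzc, sq, mul_assoc]
        _ = z := by rw [h₂.sq_D e he, mul_one]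
    rwa [e1] at h2
  have hee3 : e ∈ U₃ := h₃.mem_of_commute he' hec' heP (h₂.commute_U he hee).symm
  intro x hx
  by_contra hx3
  obtain ⟨w, hw1, hw2, hw3⟩ : ∃ w, w ∈ U₁ ∧ w ∈ U₂ ∧ w ∉ U₃ := by
    by_cases hx1 : x ∈ U₁
    · exact ⟨x, hx1, hx, hx3⟩
    refine ⟨x⁻¹ * e, h₁.inv_mul_mem (h₂.le_P hx) hx1 heP he1,
      U₂.mul_mem (U₂.inv_mem hx) (h₂.D_le he).1, fun hm => hx3 ?_⟩
    have := U₃.mul_mem hee3 (U₃.inv_mem hm)
    simpa using this
  refine hde2 (hone heP' ?_)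
  have hwP : w ∈ P := h₁.le_P hw1
  have hewe := h₂.commute_U he hw2
  have hc3 := h₃.conj_eq he' hwP hw3 hdP hd3
  have key : w * (e * e') * w⁻¹ * (e * e')⁻¹ = d * e' * d⁻¹ * e'⁻¹ := by
    have hzc := Subgroup.mem_centralizer_iff.1 (hcl d hdP e' heP').2 e heP
    calc w * (e * e') * w⁻¹ * (e * e')⁻¹ = (w * e * w⁻¹) * (w * e' * w⁻¹ * e'⁻¹) * e⁻¹ := by group
      _ = e * (d * e' * d⁻¹ * e'⁻¹) * e⁻¹ := by rw [← hewe, hc3]; group
      _ = _ := by rw [hzc]; group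
  exact key ▸ h₁.commutator_mem hw1 hy

/-- With operators of odd order, a layer gives an invariant normal subgroup of `P` moved by an
element of odd order. -/
theorem exists_invariant_moved [Finite G] {A : Type v} [Group A] [Finite A] (φ : A →* MulAut G)
    (hA : Odd (Nat.card A)) (hcl : ClassTwo P)
    (hPinv : ∀ a, P.map (φ a).toMonoidHom = P) {U₀ D₀ C₀ : Subgroup G}
    (h₀ : IsTwoLayer P U₀ D₀ C₀) :
    ∃ U : Subgroup G, U ≤ P ∧ P ⊓ Subgroup.centralizer (P : Set G) ≤ U ∧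
      (∀ a, ∀ x ∈ U, φ a x ∈ U) ∧
      ∃ h : G, Moves U h := by
  classical
  set Ua : A → Subgroup G := fun a => U₀.map (φ a).toMonoidHom with hUa
  set Da : A → Subgroup G := fun a => D₀.map (φ a).toMonoidHom with hDa
  set Ca : A → Subgroup G := fun a => C₀.map (φ a).toMonoidHom with hCa
  have hlay : ∀ a, IsTwoLayer P (Ua a) (Da a) (Ca a) := fun a => h₀.map (hPinv a)
  have hmul : ∀ (X : Subgroup G) (a b : A),
      X.map (φ (a * b)).toMonoidHom = (X.map (φ b).toMonoidHom).map (φ a).toMonoidHom := fun X a b => by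
    rw [Subgroup.map_map, map_mul]; rfl
  -- in the orbit all the `D`'s commute
  have hcomm : ∀ a b, ∀ d ∈ Da a, ∀ e ∈ Da b, d * e = e * d := by
    by_contra hne
    push Not at hne
    obtain ⟨a, b, d, hd, e, he, hde⟩ := hne
    set γ := a⁻¹ * b with hγ
    have hedge : ∀ c : A, ∃ d ∈ Da c, ∃ e ∈ Da (c * γ), d * e ≠ e * d := by
      intro c
      have hφ : ∀ (x : A) {X : Subgroup G} {g : G}, g ∈ X.map (φ x).toMonoidHom →
          φ (c * a⁻¹) g ∈ X.map (φ (c * a⁻¹ * x)).toMonoidHom := fun x X g hg => by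
        rw [hmul]; exact ⟨g, hg, rfl⟩
      refine ⟨φ (c * a⁻¹) d, ?_, φ (c * a⁻¹) e, ?_, fun h1 => hde ?_⟩
      · have := hφ a hd
        rwa [inv_mul_cancel_right] at this
      · have := hφ b he
        rwa [mul_assoc c] at this
      · rw [← map_mul, ← map_mul] at h1
        exact (φ (c * a⁻¹)).injective h1
    -- the neighbour is determined by `U`
    have huniq : ∀ c₁ c₂ : A, Ua c₁ = Ua c₂ → Ua (c₁ * γ) = Ua (c₂ * γ) := by
      intro c₁ c₂ heq
      obtain ⟨d₁, hd₁, e₁, he₁, h1⟩ := hedge c₁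
      obtain ⟨d₂, hd₂, e₂, he₂, h2⟩ := hedge c₂
      obtain ⟨d₃, hd₃, hd₃'⟩ := (hlay c₁).noncentral
      have h3 : d₁ * e₂ ≠ e₂ * d₁ := fun h => by
        have hdc : d₁ ∉ Subgroup.centralizer (P : Set G) := fun hc =>
          h1 (Subgroup.mem_centralizer_iff.1 hc e₁ ((hlay _).le_P ((hlay _).D_le he₁).1)).symm
        have hm := (hlay c₁).mem_of_commute hd₁ hdc ((hlay _).le_P ((hlay _).D_le he₂).1) h
        exact h2 ((hlay c₂).commute_U hd₂ (heq ▸ hm))
      exact le_antisymm (twoLayer_neighbour_unique hcl (hlay c₁) (hlay _) (hlay _) hd₁ he₁ h1 hd₁ he₂ h3)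
        (twoLayer_neighbour_unique hcl (hlay c₁) (hlay _) (hlay _) hd₁ he₂ h3 hd₁ he₁ h1)
    have hback : ∀ c : A, Ua (c * γ * γ) = Ua c := by
      intro c
      obtain ⟨d₁, hd₁, e₁, he₁, h1⟩ := hedge c
      obtain ⟨d₂, hd₂, e₂, he₂, h2⟩ := hedge (c * γ)
      exact le_antisymm
        (twoLayer_neighbour_unique hcl (hlay _) (hlay _) (hlay _) hd₂ he₂ h2 he₁ hd₁ (Ne.symm h1))
        (twoLayer_neighbour_unique hcl (hlay _) (hlay _) (hlay _) he₁ hd₁ (Ne.symm h1) hd₂ he₂ h2)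
    set S := Set.range Ua with hS
    have hodd : Odd (Nat.card S) := by
      letI : MulAction A (Subgroup G) := MulAction.compHom _ φ
      have e1 : S = MulAction.orbit A U₀ := rfl
      rw [e1, Nat.card_coe_set_eq, ← MulAction.index_stabilizer]
      exact hA.of_dvd_nat (MulAction.stabilizer A U₀).index_dvd_card
    let F : S → S := fun s => ⟨Ua (s.2.choose * γ), ⟨_, rfl⟩⟩
    have hF : ∀ c : A, (F ⟨Ua c, ⟨c, rfl⟩⟩ : Subgroup G) = Ua (c * γ) := fun c =>
      huniq _ _ (Exists.choose_spec (⟨c, rfl⟩ : ∃ y, Ua y = Ua c))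
    have hFF : Function.Involutive F := by
      rintro ⟨_, c, rfl⟩
      apply Subtype.ext
      have e1 : F ⟨Ua c, ⟨c, rfl⟩⟩ = ⟨Ua (c * γ), ⟨c * γ, rfl⟩⟩ := Subtype.ext (hF c)
      rw [e1, hF, hback]
    let σ : Equiv.Perm S := hFF.toPerm F
    haveI : Fintype S := Fintype.ofFinite S
    haveI : Fact (Nat.Prime 2) := ⟨Nat.prime_two⟩
    obtain ⟨⟨_, c, rfl⟩, hs⟩ := Equiv.Perm.exists_fixed_point_of_prime (p := 2) (n := 1)
      (by rw [← Nat.card_eq_fintype_card]; exact hodd.not_two_dvd_nat) (σ := σ)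
      (by rw [pow_one, sq]; exact Equiv.ext hFF)
    have hs' : Ua (c * γ) = Ua c := (hF c).symm.trans (congrArg Subtype.val hs)
    obtain ⟨d₁, hd₁, e₁, he₁, h1⟩ := hedge c
    exact h1 ((hlay c).commute_U hd₁ (hs' ▸ ((hlay _).D_le he₁).1))
  refine ⟨⨅ a, Ua a, (iInf_le Ua 1).trans (hlay 1).le_P, le_iInf fun a => (hlay a).centre_le,
    fun a x hx => Subgroup.mem_iInf.2 fun b => ?_, ?_⟩
  · have h1 : φ a x ∈ (Ua (a⁻¹ * b)).map (φ a).toMonoidHom :=
      ⟨x, Subgroup.mem_iInf.1 hx _, rfl⟩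
    simp only [hUa] at h1 ⊢
    rwa [← hmul, mul_inv_cancel_left] at h1
  have hDU : ∀ b, Da 1 ≤ Ua b := fun b d hd => by
    obtain ⟨e, he, he'⟩ := (hlay b).noncentral
    exact (hlay b).mem_of_commute he he' ((hlay 1).le_P ((hlay 1).D_le hd).1)
      (hcomm b 1 e he d hd)
  obtain ⟨g, hgo, hgD, hgC, hgn⟩ := (hlay 1).mover
  refine ⟨g, ?_, hgo, fun hc => hgn (Subgroup.centralizer_le
    (SetLike.coe_subset_coe.2 (le_iInf hDU)) hc)⟩
  refine Subgroup.mem_normalizer_fintype fun x hx => ?_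
  obtain ⟨d, hd, c, hc, rfl⟩ := (hlay 1).prod x (Subgroup.mem_iInf.1 hx 1)
  have hd' : d ∈ ⨅ a, Ua a := (le_iInf hDU) hd
  have hcU := (⨅ a, Ua a).mul_mem ((⨅ a, Ua a).inv_mem hd') hx
  rw [inv_mul_cancel_left] at hcU
  have e : g * (d * c) * g⁻¹ = (g * d * g⁻¹) * c := by
    have h1 := Subgroup.mem_centralizer_singleton_iff.1 (hgC hc)
    rw [mul_assoc g d c |>.symm, mul_assoc (g * d) c, mul_assoc (g * d) g⁻¹ c]
    congr 1
    rw [eq_inv_mul_iff_mul_eq, ← mul_assoc, ← h1, mul_inv_cancel_right]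
  rw [e]
  exact (⨅ a, Ua a).mul_mem (le_iInf hDU ((Subgroup.mem_normalizer_iff.1 hgD d).1 hd)) hcU

end Cfsg.Agent.H54
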