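import Cfsg.Agent.H54.ClassTwoOrbit
import Cfsg.Agent.H86.NilpotentMaximal
import Cfsg.Agent.H20.External

/-!
# A nilpotent maximal invariant subgroup (operator form of Thompson–Deskins–Janko)

A finite group with a coprime operator group, having a maximal invariant subgroup that is nilpotent
with Sylow `2`-subgroup of class at most two, is solvable (given the odd order theorem).
-/

set_option autoImplicit false
open scoped Pointwise

namespace Cfsg.Agent.H54

universe u v

section Core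

variable {G : Type u} [Group G] [Finite G] {A : Type v} [Group A] [Finite A] {φ : A →* MulAut G}

/-- `M` is a core-free maximal invariant subgroup. -/
structure IsInvMax (φ : A →* MulAut G) (M : Subgroup G) : Prop where
  proper : M ≠ ⊤
  inv : ∀ a, ∀ m ∈ M, φ a m ∈ M
  maximal : ∀ H : Subgroup G, M ≤ H → H ≠ ⊤ → (∀ a, ∀ h ∈ H, φ a h ∈ H) → H = M
  coreFree : ∀ N : Subgroup G, N.Normal → N ≤ M → (∀ a, ∀ n ∈ N, φ a n ∈ N) → N = ⊥

omit [Finite A] in
theorem map_eq_of_inv {P : Subgroup G} (h : ∀ a, ∀ x ∈ P, φ a x ∈ P) (a : A) :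
    P.map (φ a).toMonoidHom = P := by
  refine le_antisymm (by rintro _ ⟨x, hx, rfl⟩; exact h a x hx) fun x hx => ⟨φ a⁻¹ x, h _ x hx, ?_⟩
  show φ a (φ a⁻¹ x) = x
  rw [map_inv]
  exact (φ a).apply_symm_apply x

omit [Finite A] in
theorem normalizer_inv {C : Subgroup G} (hC : ∀ a, ∀ x ∈ C, φ a x ∈ C) :
    ∀ a, ∀ g ∈ Subgroup.normalizer (C : Set G), φ a g ∈ Subgroup.normalizer (C : Set G) := by
  intro a g hg
  have h := Subgroup.le_normalizer_map (H := C) (φ a).toMonoidHom ⟨g, hg, rfl⟩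
  rwa [map_eq_of_inv hC a] at h

namespace IsInvMax

variable {M : Subgroup G} (hM : IsInvMax φ M)
include hM

omit [Finite G] [Finite A] in
theorem eq_or_top {H : Subgroup G} (hMH : M ≤ H) (hH : ∀ a, ∀ h ∈ H, φ a h ∈ H) : H = M ∨ H = ⊤ :=
  or_iff_not_imp_right.2 fun h => hM.maximal H hMH h hH

omit [Finite A] in
theorem normalizer_eq {C : Subgroup G} (hCM : C ≤ M) (hC : C ≠ ⊥) (hinv : ∀ a, ∀ x ∈ C, φ a x ∈ C)
    (hMC : M ≤ Subgroup.normalizer (C : Set G)) : Subgroup.normalizer (C : Set G) = M := by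
  rcases hM.eq_or_top hMC (normalizer_inv hinv) with h | h
  · exact h
  · exact absurd (hM.coreFree C (Subgroup.normalizer_eq_top_iff.1 h) hCM hinv) hC

theorem exists_sylow [Group.IsNilpotent M] {p : ℕ} [hp : Fact p.Prime] (hpM : p ∣ Nat.card M) :
    ∃ P : Sylow p G, (P : Subgroup G) ≤ M ∧ M ≤ Subgroup.normalizer ((P : Subgroup G) : Set G) ∧
      (P : Subgroup G) ≠ ⊥ ∧ ∀ a, ∀ x ∈ (P : Subgroup G), φ a x ∈ (P : Subgroup G) := by
  obtain ⟨S⟩ : Nonempty (Sylow p M) := inferInstance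
  haveI hSn : (S : Subgroup M).Normal :=
    (Group.isNilpotent_of_finite_tfae.out 0 3 rfl rfl).1 inferInstance p hp S
  set T : Subgroup G := (S : Subgroup M).map M.subtype with hT
  have hTM : T ≤ M := Subgroup.map_subtype_le _
  have hne : T ≠ ⊥ := by
    rw [hT, Ne, Subgroup.map_eq_bot_iff_of_injective _ M.subtype_injective]
    exact S.ne_bot_of_dvd_card hpM
  have hN : M ≤ Subgroup.normalizer (T : Set G) := by
    have h1 := Subgroup.le_normalizer_map (H := (S : Subgroup M)) M.subtype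
    rwa [Subgroup.normalizer_eq_top_iff.2 hSn, ← MonoidHom.range_eq_map, Subgroup.range_subtype] at h1
  have hTinv : ∀ a, ∀ x ∈ T, φ a x ∈ T := by
    rintro a _ ⟨x, hx, rfl⟩
    refine ⟨⟨φ a x, hM.inv a x x.2⟩, ?_, rfl⟩
    obtain ⟨k, hk⟩ := IsPGroup.iff_orderOf.1 S.2 ⟨x, hx⟩
    have ho : orderOf (⟨φ a x, hM.inv a x x.2⟩ : M) = p ^ k := by
      rw [← Subgroup.orderOf_coe, Subgroup.coe_mk, MulEquiv.orderOf_eq, Subgroup.orderOf_coe, ← hk,
        ← Subgroup.orderOf_coe ⟨x, hx⟩]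
    exact H86.mem_sylow_of_normalizes (M := ⊤) S (by rw [Subgroup.normalizer_eq_top_iff.2 hSn])
      (Subgroup.mem_top _) ho
  have hTp : IsPGroup p T := S.2.map _
  obtain ⟨P, hP⟩ := hTp.exists_le_sylow
  rcases eq_or_lt_of_le hP with h | h
  · exact ⟨P, h ▸ hTM, h ▸ hN, h ▸ hne, h ▸ hTinv⟩
  · exfalso
    have h1 := H23.lt_inf_normalizer P.2 h
    rw [hM.normalizer_eq hTM hne hTinv hN] at h1
    have h2 : ((P : Subgroup G) ⊓ M).subgroupOf M = (S : Subgroup M) := by
      refine S.3 ((P.2.to_le inf_le_left).comap_subtype) fun x hx => ?_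
      exact Subgroup.mem_subgroupOf.2 (h1.le ⟨x, hx, rfl⟩)
    apply h1.ne
    rw [hT, ← h2, Subgroup.map_subgroupOf_eq_of_le inf_le_right]

theorem hasNormalPComplement_two [hnil : Group.IsNilpotent M] (h2 : H86.TwoClassTwo M)
    (hcop : (Nat.card A).Coprime (Nat.card G)) (P : Sylow 2 G) (hPM : (P : Subgroup G) ≤ M)
    (hMP : M ≤ Subgroup.normalizer ((P : Subgroup G) : Set G)) (hne : (P : Subgroup G) ≠ ⊥)
    (hPinv : ∀ a, ∀ x ∈ (P : Subgroup G), φ a x ∈ (P : Subgroup G)) :
    Cfsg.HasNormalPComplement 2 G := by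
  haveI : Fact (Nat.Prime 2) := ⟨Nat.prime_two⟩
  by_contra hno
  have hA : Odd (Nat.card A) := by
    have h2G : 2 ∣ Nat.card G := by
      obtain ⟨n, hn⟩ := IsPGroup.iff_card.1 P.2
      have hn0 : n ≠ 0 := fun h => hne (Subgroup.card_eq_one.1 (by rw [hn, h, pow_zero]))
      exact (dvd_pow_self 2 hn0).trans (hn ▸ Subgroup.card_subgroup_dvd_card _)
    exact Nat.coprime_two_right.1 (hcop.coprime_dvd_right h2G)
  have hPc : ∀ g ∈ M, Odd (orderOf g) → g ∈ Subgroup.centralizer ((P : Subgroup G) : Set G) := by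
    intro g hg ho
    refine Subgroup.mem_centralizer_iff.2 fun x hx => ?_
    obtain ⟨i, hi⟩ := H86.exists_orderOf_eq_pow_of_mem P.2 hx
    refine (H89.commute_of_nilpotent_coprime hnil hg (hPM hx) ?_).eq.symm
    rw [hi]
    exact (Nat.coprime_two_right.2 ho).pow_right i
  have hNP := hM.normalizer_eq hPM hne hPinv hMP
  have hcl : ClassTwo (P : Subgroup G) := fun x hx y hy => by
    refine ⟨(P : Subgroup G).mul_mem ((P : Subgroup G).mul_mem ((P : Subgroup G).mul_mem hx hy)
      ((P : Subgroup G).inv_mem hx)) ((P : Subgroup G).inv_mem hy),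
      Subgroup.mem_centralizer_iff.2 fun z hz => ?_⟩
    exact ((h2 x (hPM hx) y (hPM hy) z (hPM hz) (H86.exists_orderOf_eq_pow_of_mem P.2 hx)
      (H86.exists_orderOf_eq_pow_of_mem P.2 hy) (H86.exists_orderOf_eq_pow_of_mem P.2 hz)).eq).symm
  obtain ⟨U₀, D₀, C₀, hlay⟩ := exists_twoLayer P hcl hno fun g hg ho => hPc g (hNP ▸ hg) ho
  obtain ⟨U, hUP, hZU, hUinv, g, hg, hgo, hgc⟩ :=
    exists_invariant_moved φ hA hcl (map_eq_of_inv hPinv) hlay
  have hUne : U ≠ ⊥ := fun h => H23.inf_centralizer_ne_bot P.2 hne (le_bot_iff.1 (h ▸ hZU))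
  have hMU : M ≤ Subgroup.normalizer (U : Set G) := by
    intro m hm
    obtain ⟨u, v, hu, hv, huv, ⟨k, hk⟩, hco⟩ :=
      H86.exists_pPart_mul_pPrimePart m (isOfFinOrder_of_finite m) Nat.prime_two
    have huP := H86.mem_sylow_of_normalizes P hMP ((Subgroup.zpowers_le.2 hm) hu) hk
    have hvC := hPc v ((Subgroup.zpowers_le.2 hm) hv) (Nat.coprime_two_right.1 hco)
    rw [← huv]
    refine mul_mem (Subgroup.mem_normalizer_fintype fun x hx => ?_)
      (Subgroup.centralizer_le_normalizer _ (Subgroup.centralizer_le (SetLike.coe_subset_coe.2 hUP) hvC))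
    have h4 : u * x * u⁻¹ * x⁻¹ ∈ U := hZU (hcl u huP x (hUP hx))
    simpa using U.mul_mem h4 hx
  have hN := hM.normalizer_eq (hUP.trans hPM) hUne hUinv hMU
  exact hgc (Subgroup.centralizer_le (SetLike.coe_subset_coe.2 hUP) (hPc g (hN ▸ hg) hgo))

theorem hasNormalPComplement [hnil : Group.IsNilpotent M] (h2 : H86.TwoClassTwo M)
    (hcop : (Nat.card A).Coprime (Nat.card G)) {p : ℕ} [hp : Fact p.Prime]
    (hpM : p ∣ Nat.card M) : Cfsg.HasNormalPComplement p G := by
  obtain ⟨P, hPM, hMP, hne, hPinv⟩ := hM.exists_sylow hpM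
  by_cases hp2 : p = 2
  · subst hp2
    exact hM.hasNormalPComplement_two h2 hcop P hPM hMP hne hPinv
  refine H23.thompson_normal_p_complement hp2 _ G rfl P ⟨?_, ?_⟩
  · have hJinv : ∀ a, ∀ x ∈ Cfsg.thompsonSubgroupOf p (P : Subgroup G),
        φ a x ∈ Cfsg.thompsonSubgroupOf p (P : Subgroup G) := by
      intro a x hx
      have h := H23.map_thompsonSubgroupOf (p := p) (φ a).toMonoidHom (P : Subgroup G)
        (φ a).injective.injOn
      rw [map_eq_of_inv hPinv a] at h
      exact h ▸ ⟨x, hx, rfl⟩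
    have h1 := hM.normalizer_eq ((H23.thompsonSubgroupOf_le (p := p) (P : Subgroup G)).trans hPM)
      (H23.thompsonSubgroupOf_ne_bot P.2 hne) hJinv
      (hMP.trans (H23.normalizer_le_normalizer_thompsonSubgroupOf _))
    have := H86.nilpotent_subgroup_of_le (M := M) h1.le
    exact H21.hasNormalPComplement_of_nilpotent p
  · have hZinv : ∀ a, ∀ x ∈ (P : Subgroup G) ⊓ Subgroup.centralizer ((P : Subgroup G) : Set G),
        φ a x ∈ (P : Subgroup G) ⊓ Subgroup.centralizer ((P : Subgroup G) : Set G) := by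
      refine fun a x hx => ⟨hPinv a x hx.1, Subgroup.mem_centralizer_iff.2 fun y hy => ?_⟩
      obtain ⟨z, hz, rfl⟩ : y ∈ (P : Subgroup G).map (φ a).toMonoidHom := by
        rw [map_eq_of_inv hPinv a]; exact hy
      show φ a z * φ a x = φ a x * φ a z
      rw [← map_mul, ← map_mul, Subgroup.mem_centralizer_iff.1 hx.2 z hz]
    have h1 := hM.normalizer_eq (inf_le_left.trans hPM) (H23.inf_centralizer_ne_bot P.2 hne) hZinv
      (hMP.trans (H23.normalizer_le_normalizer_inf_centralizer _))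
    have := H86.nilpotent_subgroup_of_le (M := M)
      ((Subgroup.centralizer_le_normalizer _).trans h1.le)
    exact H21.hasNormalPComplement_of_nilpotent p

theorem isSolvable [Group.IsNilpotent M] (h2 : H86.TwoClassTwo M)
    (hcop : (Nat.card A).Coprime (Nat.card G)) (hMne : M ≠ ⊥) : Group.IsSolvable G := by
  set K : Subgroup G := ⨅ p : (Nat.card M).primeFactors, Cfsg.pResidual (p : ℕ) G with hK
  have hKn : K.Normal := Subgroup.normal_iInf_normal fun p => H22.pResidual_normal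
  have hKiff : ∀ x, x ∈ K ↔ ∀ p : (Nat.card M).primeFactors, (orderOf x).Coprime p := fun x => by
    rw [hK, Subgroup.mem_iInf]
    refine forall_congr' fun p => ?_
    haveI : Fact (p : ℕ).Prime := ⟨Nat.prime_of_mem_primeFactors p.2⟩
    exact H22.mem_pResidual_iff_coprime
      (hM.hasNormalPComplement h2 hcop (Nat.dvd_of_mem_primeFactors p.2)) x
  have hKinv : ∀ a, ∀ x ∈ K, φ a x ∈ K := fun a x hx => by
    rw [hKiff] at hx ⊢
    simpa using hx
  have hKcop : (Nat.card M).Coprime (Nat.card K) := by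
    refine Nat.coprime_of_dvd fun r hr hrM hrK => ?_
    haveI : Fact r.Prime := ⟨hr⟩
    obtain ⟨y, hy⟩ := exists_prime_orderOf_dvd_card' r hrK
    have h := (hKiff y).1 y.2 ⟨r, Nat.mem_primeFactors.2 ⟨hr, hrM, Nat.card_pos.ne'⟩⟩
    rw [Subgroup.orderOf_coe, hy] at h
    exact hr.coprime_iff_not_dvd.1 h dvd_rfl
  obtain ⟨q, hq, hqi⟩ := Nat.exists_prime_and_dvd
    (show M.index ≠ 1 from fun h => hM.proper (Subgroup.index_eq_one.1 h))
  haveI : Fact q.Prime := ⟨hq⟩
  have hqM : ¬ q ∣ Nat.card M := by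
    intro h
    obtain ⟨P, hPM, -, -⟩ := hM.exists_sylow h
    exact P.not_dvd_index (hqi.trans (Subgroup.index_dvd_of_le hPM))
  obtain ⟨x, hx⟩ := exists_prime_orderOf_dvd_card' q (hqi.trans M.index_dvd_card)
  have hxK : x ∈ K := by
    refine (hKiff x).2 fun p => ?_
    rw [hx, Nat.coprime_primes hq (Nat.prime_of_mem_primeFactors p.2)]
    rintro rfl
    exact hqM (Nat.dvd_of_mem_primeFactors p.2)
  have hMK : M ≤ Subgroup.normalizer (K : Set G) := by
    rw [Subgroup.normalizer_eq_top_iff.2 hKn]; exact le_top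
  obtain ⟨Q, hQK, hMQ, hQp, hQc⟩ := H20.exists_invariant_sylow_subgroup
    (A := M) (K := K) hMK hKcop (Or.inl inferInstance) q
  -- the fixed points of `M` in `K` are trivial, so `Q` is invariant
  have hC : K ⊓ Subgroup.centralizer (M : Set G) = ⊥ := by
    set C := K ⊓ Subgroup.centralizer (M : Set G) with hCdef
    have hCinv : ∀ a, ∀ c ∈ C, φ a c ∈ C := fun a c hc => by
      refine ⟨hKinv a c hc.1, Subgroup.mem_centralizer_iff.2 fun y hy => ?_⟩
      obtain ⟨z, hz, rfl⟩ : y ∈ M.map (φ a).toMonoidHom := by rw [map_eq_of_inv hM.inv a]; exact hy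
      show φ a z * φ a c = φ a c * φ a z
      rw [← map_mul, ← map_mul, Subgroup.mem_centralizer_iff.1 hc.2 z hz]
    rcases hM.eq_or_top (H := M ⊔ C) le_sup_left (fun a y hy => by
        have h : φ a y ∈ (M ⊔ C).map (φ a).toMonoidHom := ⟨y, hy, rfl⟩
        rwa [Subgroup.map_sup, map_eq_of_inv hM.inv a, map_eq_of_inv hCinv a] at h) with h | h
    · have h1 : C ≤ M ⊓ K := le_inf (le_sup_right.trans h.le) inf_le_left
      rwa [Subgroup.inf_eq_bot_of_coprime hKcop, le_bot_iff] at h1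
    · refine absurd (hM.coreFree M (Subgroup.normalizer_eq_top_iff.1 (top_le_iff.1 (h ▸ sup_le
        Subgroup.le_normalizer (inf_le_right.trans (Subgroup.centralizer_le_normalizer _))))) le_rfl
        hM.inv) hMne
  have hQinv : ∀ a, ∀ y ∈ Q, φ a y ∈ Q := by
    intro a y hy
    set Q' := Q.map (φ a).toMonoidHom with hQ'
    have hQ'K : Q' ≤ K := by rintro _ ⟨z, hz, rfl⟩; exact hKinv a z (hQK hz)
    have hQ'c : Nat.card Q' = q ^ (Nat.card K).factorization q :=
      (Subgroup.card_map_of_injective (φ a).injective).trans hQc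
    have hMQ' : M ≤ Subgroup.normalizer (Q' : Set G) := by
      refine le_of_eq_of_le (map_eq_of_inv hM.inv a).symm ?_
      exact (Subgroup.map_mono hMQ).trans (Subgroup.le_normalizer_map _)
    obtain ⟨c, hc, he⟩ := H20.invariant_sylow_subgroup_conj hMK hKcop (Or.inl inferInstance)
      hQK hQ'K hQc hQ'c hMQ hMQ'
    rw [hC, Subgroup.mem_bot] at hc
    rw [hc, map_one, one_smul] at he
    exact he ▸ ⟨y, hy, rfl⟩
  have hQne : ¬ Q ≤ M := by
    intro h
    have h4 : q ∣ Nat.card Q := by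
      rw [hQc]
      refine dvd_pow_self q (hq.factorization_pos_of_dvd Nat.card_pos.ne' ?_).ne'
      exact hx ▸ K.orderOf_dvd_natCard hxK
    exact hqM (h4.trans (Subgroup.card_dvd_of_le h))
  have htop : M ⊔ Q = ⊤ := by
    rcases hM.eq_or_top (H := M ⊔ Q) le_sup_left (fun a y hy => by
        have h : φ a y ∈ (M ⊔ Q).map (φ a).toMonoidHom := ⟨y, hy, rfl⟩
        rwa [Subgroup.map_sup, map_eq_of_inv hM.inv a, map_eq_of_inv hQinv a] at h) with h | h
    · exact absurd (le_sup_right.trans h.le) hQne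
    · exact h
  have hQn : Q.Normal :=
    Subgroup.normalizer_eq_top_iff.1 (top_le_iff.1 (htop ▸ sup_le hMQ Subgroup.le_normalizer))
  have hQs : Group.IsSolvable Q := by
    have := hQp.isNilpotent
    infer_instance
  have hsurj : Function.Surjective ((QuotientGroup.mk' Q).comp M.subtype) := by
    rw [← MonoidHom.range_eq_top, MonoidHom.range_comp, Subgroup.range_subtype]
    have h5 := congrArg (Subgroup.map (QuotientGroup.mk' Q)) htop
    rw [Subgroup.map_sup, QuotientGroup.map_mk'_self, sup_bot_eq,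
      Subgroup.map_top_of_surjective _ (QuotientGroup.mk'_surjective Q)] at h5
    exact h5
  have : Group.IsSolvable (G ⧸ Q) := Group.isSolvable_of_surjective hsurj
  exact Group.isSolvable_of_ker_le_range Q.subtype (QuotientGroup.mk' Q) (by simp)

end IsInvMax

/-- Without proper nontrivial invariant subgroups the group is solvable. -/
theorem isSolvable_of_no_invariant (hcop : (Nat.card A).Coprime (Nat.card G))
    (hodd : Odd (Nat.card G) → Group.IsSolvable G) (hoddA : Odd (Nat.card A) → Group.IsSolvable A)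
    (h : ∀ H : Subgroup G, (∀ a, ∀ x ∈ H, φ a x ∈ H) → H = ⊥ ∨ H = ⊤) : Group.IsSolvable G := by
  by_cases hne : Nat.card G = 1
  · haveI : Subsingleton G := (Nat.card_eq_one_iff_unique.1 hne).1
    infer_instance
  obtain ⟨q, hq, hqd⟩ := Nat.exists_prime_and_dvd hne
  haveI : Fact q.Prime := ⟨hq⟩
  have hs : Group.IsSolvable A ∨ Group.IsSolvable G := by
    rcases Nat.even_or_odd (Nat.card G) with he | ho
    · refine Or.inl (hoddA ?_)
      exact Nat.coprime_two_right.1 (hcop.coprime_dvd_right (even_iff_two_dvd.1 he))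
    · exact Or.inr (hodd ho)
  obtain ⟨P, hP⟩ := H20.External.exists_invariant_sylow φ hcop hs q
  rcases h _ hP with e | e
  · exact absurd e (P.ne_bot_of_dvd_card hqd)
  · have : IsPGroup q (⊤ : Subgroup G) := e ▸ P.2
    haveI := (this.of_equiv Subgroup.topEquiv).isNilpotent
    infer_instance

end Core

theorem isSolvable_of_inv_nilpotent_aux (n : ℕ) :
    ∀ (G : Type u) [Group G] [Finite G], Nat.card G = n → ∀ (A : Type v) [Group A] [Finite A]
      (φ : A →* MulAut G), (Nat.card A).Coprime (Nat.card G) → (Odd (Nat.card A) → Group.IsSolvable A) →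
      (∀ (H : Type u) [Group H] [Finite H], Odd (Nat.card H) → Group.IsSolvable H) →
      ∀ M : Subgroup G, M ≠ ⊤ → (∀ a, ∀ m ∈ M, φ a m ∈ M) →
        (∀ H : Subgroup G, M ≤ H → H ≠ ⊤ → (∀ a, ∀ h ∈ H, φ a h ∈ H) → H = M) →
        Group.IsNilpotent M → H86.TwoClassTwo M → Group.IsSolvable G := by
  induction n using Nat.strong_induction_on with
  | _ n ih =>
  intro G _ _ hn A _ _ φ hcop hA hodd M htop hinv hmax hnil h2
  by_cases hcore : ∀ N : Subgroup G, N.Normal → N ≤ M → (∀ a, ∀ m ∈ N, φ a m ∈ N) → N = ⊥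
  · have hM : IsInvMax φ M := ⟨htop, hinv, hmax, hcore⟩
    rcases eq_or_ne M ⊥ with e | e
    · refine isSolvable_of_no_invariant (φ := φ) hcop (hodd G) hA fun H hH => ?_
      rcases hM.eq_or_top (H := H) (e ▸ bot_le) hH with h | h
      · exact Or.inl (h.trans e)
      · exact Or.inr h
    · exact hM.isSolvable h2 hcop e
  push Not at hcore
  obtain ⟨N, hN, hNM, hNinv, hNbot⟩ := hcore
  set f := QuotientGroup.mk' N with hf
  have hfs : Function.Surjective f := QuotientGroup.mk'_surjective N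
  have hcm : (M.map f).comap f = M := Subgroup.comap_map_eq_self (by simpa [hf] using hNM)
  let ψ : A →* MulAut (G ⧸ N) :=
    { toFun := fun a => QuotientGroup.congr N N (φ a) (map_eq_of_inv hNinv a)
      map_one' := by
        ext x; obtain ⟨x, rfl⟩ := hfs x; simp [hf]
      map_mul' := fun a b => by
        ext x; obtain ⟨x, rfl⟩ := hfs x
        show f (φ (a * b) x) = f (φ a (φ b x))
        rw [map_mul]; rfl }
  have hψ : ∀ a x, ψ a (f x) = f (φ a x) := fun a x => rfl
  have htop' : M.map f ≠ ⊤ := fun h => htop (by rw [← hcm, h, Subgroup.comap_top])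
  have hinv' : ∀ a, ∀ y ∈ M.map f, ψ a y ∈ M.map f := by
    rintro a _ ⟨x, hx, rfl⟩
    exact ⟨φ a x, hinv a x hx, (hψ a x).symm⟩
  have hmax' : ∀ H : Subgroup (G ⧸ N), M.map f ≤ H → H ≠ ⊤ → (∀ a, ∀ h ∈ H, ψ a h ∈ H) →
      H = M.map f := by
    intro H h1 h2 h3
    have h4 : H.comap f = M := hmax _ (hcm ▸ Subgroup.comap_mono h1)
      (fun h => h2 (by rw [← Subgroup.map_comap_eq_self_of_surjective hfs H, h,
        Subgroup.map_top_of_surjective f hfs]))
      (fun a x hx => by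
        show f (φ a x) ∈ H
        rw [← hψ]; exact h3 a _ hx)
    rw [← h4, Subgroup.map_comap_eq_self_of_surjective hfs]
  have hnil' : Group.IsNilpotent (M.map f) :=
    Group.nilpotent_of_surjective _ (f.subgroupMap_surjective M)
  have h2' : H86.TwoClassTwo (M.map f) := by
    have lift : ∀ y ∈ M.map f, (∃ i, orderOf y = 2 ^ i) →
        ∃ x ∈ M, (∃ i, orderOf x = 2 ^ i) ∧ f x = y := by
      rintro y ⟨x, hx, rfl⟩ ⟨i, hi⟩
      obtain ⟨u, v, hu, hv, huv, hk, hco⟩ :=
        H86.exists_pPart_mul_pPrimePart x (isOfFinOrder_of_finite x) Nat.prime_two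
      refine ⟨u, (Subgroup.zpowers_le.2 hx) hu, hk, ?_⟩
      have h4 : f v ∈ Subgroup.zpowers (f x) := by
        rw [← MonoidHom.map_zpowers]; exact Subgroup.mem_map_of_mem f hv
      have h5 : orderOf (f v) ∣ 2 ^ i := hi ▸ orderOf_dvd_of_mem_zpowers h4
      have h6 : orderOf (f v) = 1 :=
        Nat.eq_one_of_dvd_coprimes (hco.pow_right i) (orderOf_map_dvd f v) h5
      rw [orderOf_eq_one_iff] at h6
      rw [← huv, map_mul, h6, mul_one]
    intro x hx y hy z hz hxo hyo hzo
    obtain ⟨a, ha, hao, rfl⟩ := lift x hx hxo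
    obtain ⟨b, hb, hbo, rfl⟩ := lift y hy hyo
    obtain ⟨c, hc, hco, rfl⟩ := lift z hz hzo
    simpa using (h2 a ha b hb c hc hao hbo hco).map f
  have hdvd : Nat.card (G ⧸ N) ∣ Nat.card G := Subgroup.card_quotient_dvd_card N
  have hlt : Nat.card (G ⧸ N) < n := by
    have h7 := N.card_mul_index
    rw [← Subgroup.index_eq_card]
    have : 1 < Nat.card N := N.one_lt_card_iff_ne_bot.2 hNbot
    have h8 : 0 < N.index := Nat.pos_of_ne_zero N.index_ne_zero_of_finite
    have h9 : 2 * N.index ≤ Nat.card N * N.index := Nat.mul_le_mul_right _ this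
    omega
  have := ih _ hlt (G ⧸ N) rfl A ψ (hcop.coprime_dvd_right hdvd) hA hodd (M.map f) htop' hinv' hmax'
    hnil' h2'
  haveI : Group.IsNilpotent N := H86.nilpotent_subgroup_of_le hNM
  haveI : Group.IsSolvable N := IsNilpotent.to_isSolvable
  exact Group.isSolvable_of_ker_le_range N.subtype f (by simp [hf])

/-- The class bound on the Sylow `2`-subgroups of a nilpotent group. -/
theorem twoClassTwo_of_class {G : Type u} [Group G] [Finite G] {M : Subgroup G}
    (hnil : Group.IsNilpotent M)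
    (h2 : ∀ S : Sylow 2 ↥M, Group.nilpotencyClass ↥(S : Subgroup ↥M) ≤ 2) : H86.TwoClassTwo M := by
  haveI : Fact (Nat.Prime 2) := ⟨Nat.prime_two⟩
  obtain ⟨S⟩ : Nonempty (Sylow 2 M) := inferInstance
  haveI hSn : (S : Subgroup M).Normal :=
    (Group.isNilpotent_of_finite_tfae.out 0 3 rfl rfl).1 hnil 2 inferInstance S
  haveI : Group.IsNilpotent ↥(S : Subgroup M) := S.2.isNilpotent
  intro x hx y hy z hz ⟨i, hi⟩ ⟨j, hj⟩ ⟨k, hk⟩
  have hmem : ∀ {g : G} (hg : g ∈ M) {l : ℕ}, orderOf g = 2 ^ l → (⟨g, hg⟩ : M) ∈ (S : Subgroup M) :=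
    fun hg _ hl => H86.mem_sylow_of_normalizes (M := ⊤) S
      (by rw [Subgroup.normalizer_eq_top_iff.2 hSn]) (Subgroup.mem_top _)
      (by rw [← Subgroup.orderOf_coe]; exact hl)
  set a : (S : Subgroup M) := ⟨⟨x, hx⟩, hmem hx hi⟩
  set b : (S : Subgroup M) := ⟨⟨y, hy⟩, hmem hy hj⟩
  set c : (S : Subgroup M) := ⟨⟨z, hz⟩, hmem hz hk⟩
  have htop : Subgroup.upperCentralSeries ↥(S : Subgroup M) 2 = ⊤ :=
    Subgroup.upperCentralSeries_eq_top_iff_nilpotencyClass_le.2 (h2 S)
  have h1 : a ∈ Subgroup.upperCentralSeries ↥(S : Subgroup M) (1 + 1) := by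
    rw [show (1 + 1 : ℕ) = 2 from rfl, htop]; exact Subgroup.mem_top _
  rw [Subgroup.mem_upperCentralSeries_succ_iff] at h1
  have h3 := h1 b
  rw [Subgroup.upperCentralSeries_one, Subgroup.mem_center_iff] at h3
  have h4 := congrArg (fun w : (S : Subgroup M) => ((w : M) : G)) (h3 c)
  simpa [Commute, SemiconjBy, commutatorElement_def] using h4.symm

/-- The operator version of Thompson–Deskins–Janko. -/
theorem isSolvable_of_inv_nilpotent_maximal
    {G : Type u} [Group G] [Finite G] {A : Type v} [Group A] [Finite A]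
    (hoddG : ∀ (H : Type u) [Group H] [Finite H], Odd (Nat.card H) → Group.IsSolvable H)
    (hoddA : Odd (Nat.card A) → Group.IsSolvable A)
    (φ : A →* MulAut G) (hcop : (Nat.card A).Coprime (Nat.card G))
    (M : Subgroup G) (hMtop : M ≠ ⊤) (hMinv : ∀ a : A, ∀ m : G, m ∈ M → φ a m ∈ M)
    (hMmax : ∀ H : Subgroup G, M ≤ H → H ≠ ⊤ → (∀ a : A, ∀ h : G, h ∈ H → φ a h ∈ H) → H = M)
    (hnil : Group.IsNilpotent M)
    (h2 : ∀ S : Sylow 2 ↥M, Group.nilpotencyClass ↥(S : Subgroup ↥M) ≤ 2) : Group.IsSolvable G :=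
  isSolvable_of_inv_nilpotent_aux _ G rfl A φ hcop hoddA hoddG M hMtop hMinv hMmax hnil
    (twoClassTwo_of_class hnil h2)

end Cfsg.Agent.H54
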